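import Cfsg.Agent.H44.A9N
import Cfsg.Agent.H78.Basic

/-! The strongly closed `3`-core of `3³ : S₄`. -/

set_option autoImplicit false
set_option maxRecDepth 100000
open Cfsg H28

namespace H44

theorem eq_one_of_sq {M : Type*} [Group M] {x : M} (h2 : x ^ 2 = 1) {n : ℕ} (h : x ^ 3 ^ n = 1) :
    x = 1 := by
  have := pow_gcd_eq_one.2 ⟨h2, h⟩
  rwa [Nat.Coprime.gcd_eq_one (Nat.Coprime.pow_right n (by norm_num)), pow_one] at this

namespace K24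

theorem exists_phi {G : Type*} [Group G] {H : Subgroup G}
    (e : ↥H ≃* ↥(Subgroup.closure ({Equiv.swap (0 : Fin 9) 1 * Equiv.swap 1 2,
        Equiv.swap (0 : Fin 9) 3 * Equiv.swap 3 6 * (Equiv.swap (1 : Fin 9) 4 * Equiv.swap 4 7) *
          (Equiv.swap (2 : Fin 9) 5 * Equiv.swap 5 8), Equiv.swap (0 : Fin 9) 1 * Equiv.swap 3 4,
        Equiv.swap (0 : Fin 9) 3 * Equiv.swap 1 4 * Equiv.swap 2 5 * Equiv.swap 6 7} :
        Set (Equiv.Perm (Fin 9))))) :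
    ∃ φ : SD J3 K24 →* G, Function.Injective φ ∧ φ.range = H := by
  have h0 : psi (gen 0) = Equiv.swap (0 : Fin 9) 1 * Equiv.swap 1 2 :=
    Equiv.ext (by simp only [psi_apply]; decide +kernel)
  have h1 : psi (gen 1) = Equiv.swap (0 : Fin 9) 3 * Equiv.swap 3 6 *
      (Equiv.swap (1 : Fin 9) 4 * Equiv.swap 4 7) * (Equiv.swap (2 : Fin 9) 5 * Equiv.swap 5 8) :=
    Equiv.ext (by simp only [psi_apply]; decide +kernel)
  have h2 : psi (gen 2) = Equiv.swap (0 : Fin 9) 1 * Equiv.swap 3 4 :=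
    Equiv.ext (by simp only [psi_apply]; decide +kernel)
  have h3 : psi (gen 3) = Equiv.swap (0 : Fin 9) 3 * Equiv.swap 1 4 * Equiv.swap 2 5 *
      Equiv.swap 6 7 := Equiv.ext (by simp only [psi_apply]; decide +kernel)
  refine exists_model psi_inj ?_ (g := gen) (fun i => ?_) (fun m => ⟨_, evw_word m⟩) e
  · rintro _ (rfl | rfl | rfl | rfl)
    exacts [⟨_, h0⟩, ⟨_, h1⟩, ⟨_, h2⟩, ⟨_, h3⟩]
  · match i with
    | 0 => exact Or.inl h0
    | 1 => exact Or.inr (Or.inl h1)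
    | 2 => exact Or.inr (Or.inr (Or.inl h2))
    | _ + 3 => exact Or.inr (Or.inr (Or.inr h3))

def z : SD J3 K24 := ⟨(1, 1, 1), 1⟩

theorem z_ne : z ≠ 1 := by decide

theorem z_cases : ∀ y : SD J3 K24, y.k = 1 → y = 1 ∨ (∃ k, y * ⟨0, k⟩ = ⟨0, k⟩ * z) ∨
    ∃ k, k ≠ 1 ∧ (⟨0, k⟩ : SD J3 K24) ^ 2 = 1 ∧ y * ⟨0, k⟩ = ⟨0, k⟩ * y := by decide +kernel

theorem z_cent : ∀ t : SD J3 K24, t * z = z * t → t ^ 2 = 1 → t = 1 := by decide +kernel

theorem eq_top {G : Type*} [Group G] [Finite G] {φ : SD J3 K24 →* G} (hφ : Function.Injective φ)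
    {J : Subgroup G} (hJ : J = (pCore 3 φ.range).map φ.range.subtype)
    (hC : ∀ j ∈ J, j ≠ 1 → Subgroup.centralizer ({j} : Set G) ≤ φ.range)
    (hsc : IsStronglyClosed J φ.range) : φ.range = ⊤ := by
  have : Fact (Nat.Prime 3) := ⟨Nat.prime_three⟩
  have h1 : ∀ j ∈ (SD.JJ : Subgroup (SD J3 K24)), φ j ∈ J := fun j hj => by
    refine hJ ▸ H78.le_pCoreIn (K := SD.JJ.map φ) (Subgroup.map_le_range _ _)
      (IsPGroup.map (fun x => ⟨1, Subtype.ext (cube _ x.2)⟩) _) ?_ ⟨j, hj, rfl⟩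
    rintro _ ⟨m, rfl⟩ _ ⟨x, hx, rfl⟩
    exact ⟨m * x * m⁻¹, Subgroup.Normal.conj_mem inferInstance _ hx _, by simp⟩
  have h2 : ∀ m, φ m ∈ J → m ∈ SD.JJ := fun m hm => by
    by_contra h
    obtain ⟨g, h3, h4⟩ := (by decide +kernel : ∀ k : K24, k ≠ 1 → ∃ g, k * (g * k * g⁻¹) ≠ 1 ∧
      (k * (g * k * g⁻¹)) ^ 2 = 1) m.k h
    have h5 : φ (m * (⟨0, g⟩ * m * (⟨0, g⟩ : SD J3 K24)⁻¹)) ∈ J := by
      simp only [map_mul, map_inv]
      exact J.mul_mem hm (hsc.2 _ hm _ (by simp only [← map_mul, ← map_inv]; exact ⟨_, rfl⟩))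
    obtain ⟨n, hn⟩ := (hJ ▸ H78.isPGroup_pCoreIn (p := 3) φ.range) ⟨_, h5⟩
    have h6 := congrArg SD.π (hφ ((map_pow φ _ _).trans ((congrArg Subtype.val hn).trans
      (map_one φ).symm)))
    rw [map_pow, map_one] at h6
    exact h3 (eq_one_of_sq h4 h6)
  refine range_eq_top hφ fun j ⟨hj, hj1⟩ g hg => ?_
  have hz : φ z ∈ J := h1 z rfl
  have hz1 : φ z ≠ 1 := by rw [Ne, map_eq_one_iff φ hφ]; exact z_ne
  obtain ⟨y, hy⟩ : g * φ z * g⁻¹ ∈ φ.range := by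
    refine hC _ (hsc.2 _ (h1 j hj) g hg) (by simpa [map_eq_one_iff φ hφ, mul_inv_eq_one]) ?_
    rw [Subgroup.mem_centralizer_singleton_iff, conj_mul, conj_mul, ← map_mul, ← map_mul,
      SD.comm_JJ hj rfl]
  rcases z_cases y (h2 y (hy ▸ hsc.2 _ hz g ⟨y, hy⟩)) with rfl | ⟨k, h⟩ | ⟨k, h3, h4, h5⟩
  · exact absurd (by simpa [mul_inv_eq_one] using hy.symm) hz1
  · have h3 := congrArg φ h
    rw [map_mul, map_mul, hy] at h3
    have : (φ ⟨0, k⟩)⁻¹ * g ∈ φ.range := hC _ hz hz1 (by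
      rw [Subgroup.mem_centralizer_singleton_iff, mul_assoc, inv_mul_eq_iff_eq_mul, ← mul_assoc,
        ← h3]; group)
    simpa using φ.range.mul_mem ⟨⟨0, k⟩, rfl⟩ this
  · have h6 := congrArg φ h5
    rw [map_mul, map_mul, hy] at h6
    obtain ⟨t, ht⟩ : g⁻¹ * φ ⟨0, k⟩ * g ∈ φ.range := hC _ hz hz1 (by
      rw [Subgroup.mem_centralizer_singleton_iff]
      calc _ = g⁻¹ * (φ ⟨0, k⟩ * (g * φ z * g⁻¹)) * g := by group
        _ = _ := by rw [← h6]; group)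
    have h7 : t = 1 := z_cent t
      (hφ (by
        rw [map_mul, map_mul, ht]
        calc _ = g⁻¹ * (φ ⟨0, k⟩ * (g * φ z * g⁻¹)) * g := by group
          _ = _ := by rw [← h6]; group))
      (hφ (by
        rw [map_pow, ht, map_one]
        calc _ = g⁻¹ * φ (⟨0, k⟩ ^ 2) * g := by rw [map_pow, sq, sq]; group
          _ = _ := by rw [h4, map_one]; group))
    rw [h7, map_one, eq_comm, mul_assoc, inv_mul_eq_one, eq_comm, mul_eq_right,
      map_eq_one_iff φ hφ] at ht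
    exact absurd (congrArg SD.k ht) h3

end K24

end H44
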