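/- Tower C3 (S5227), slot L0b: at level zero the module lies in `E₁`. -/
import Cfsg.Agent.H20.C3Kit

set_option autoImplicit false

namespace H44.C3

open Subgroup H90.RF H20.C3
open H90.U5 (Bq)

/-- scalar multiples in `A` -/
def sm (j : F3) (y : Co) : Co := vv (j * y.c) (j * y.e) (j * y.f) (j * y.g) (j * y.h) (j * y.z)

theorem sm_mem {X : Subgroup Co} {y : Co} (hA : y ∈ sA) (hy : y ∈ X) (j : F3) : sm j y ∈ X :=
  root_mem (x := fun j => sm j y) (by ext <;> simp [sm, vv]) (fun t => by ext <;> simp [sm, vv])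
    (by rw [eq_vv hA] at hy; simpa [sm] using hy) j

theorem mem_of_sm {X : Subgroup Co} {y : Co} (hA : y ∈ sA) {j : F3} (hj : j ≠ 0) (hy : sm j y ∈ X) :
    y ∈ X := by
  have := sm_mem (vv_mem ..) hy j
  rw [eq_vv hA]
  simpa [sm, vv, ← mul_assoc, sq_one hj] using this

variable {E M : Subgroup Co}

theorem key (h : Bq 3 zA 0 E M) {y : Co} (hA : y ∈ sA) (hy : y ∈ normalizer (E : Set Co))
    (ind : ∀ i j, xh i * sm j y ∈ E → i = 0 ∧ j = 0) : False := by
  have hZ : sZ ≤ E := h.le.trans h.ME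
  have hh : ∀ i, xh i ∈ sZ2 := fun i => ⟨rfl, rfl, rfl, rfl, rfl, rfl, rfl⟩
  have hB : ∀ i, xh i ∈ sA ⊓ normalizer (E : Set Co) := fun i =>
    ⟨Z2_le_A (hh i), mem_nor fun c _ => hZ (cm_Z2_S (hh i) c)⟩
  refine h.no2 (B := sA ⊓ normalizer (E : Set Co)) inf_le_right
    (fun x hx w hw m _ => mem_bot.2 (cm_A_A hx.1 (A5_le_A (cm_A_S hw.1 m)))) (hB 1)
    (fun k => one_ne_zero (ind 1 0 (mul_mem k ?_)).1) (fun i j => xh i * sm j y) xz
    (fun i j => mul_mem (hB i) (sm_mem hA (mem_inf.2 ⟨hA, hy⟩) j)) (fun i j i' j' e => ?_) fun m _ => ?_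
  · rw [show sm 0 y = 1 by ext <;> simp [sm, vv]]
    exact one_mem _
  · have := ind (i' - i) (j' - j) (by convert e using 1; ext <;> simp [xh, sm, vv] <;> ring)
    exact ⟨(sub_eq_zero.1 this.1).symm, (sub_eq_zero.1 this.2).symm⟩
  · obtain ⟨h1, h2, h3, h4, h5, h6, h7, h8⟩ := cm_Z2_S (hh 1) m
    exact ⟨(cm (xh 1) m).z, mem_bot.2 (by ext <;> simp [xz, *])⟩

theorem jobL0b : H20.C3.JobL0b := fun E M h m hm => by
  by_contra ha
  rw [mem_sE1] at ha
  have aa := sq_one ha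
  have hZ : sZ ≤ E := h.le.trans h.ME
  have c1 : ∀ t ∈ E, cm t m = 1 := fun t ht => mem_bot.1 ((h.cen t).1 ht m hm)
  have cb : ∀ t ∈ E, t.b = m.a * m.b * t.a := fun t ht => by
    have := congrArg Co.d (c1 t ht)
    simp [cm_d] at this
    grind
  have hz : ∀ t ∈ E, ∀ t' ∈ E, cm t t' ∈ sZ → (cm t t').z = 0 := fun t ht t' ht' k => by
    by_contra k'
    refine ha (h.gen_le (X := sZ4) (fun β hβ u hu _ => ?_) hm).1
    have hu' : u ∈ sZ := hu
    have e : β (cm t t') ∈ sZ4 := by rw [hβ.1.cm ht ht']; exact cm_S_S _ _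
    obtain ⟨h1, h2, h3, h4, h5, h6, h7, h8⟩ := k
    obtain ⟨k1, k2, k3, k4, k5, k6, k7, k8⟩ := hu'
    rcases (show u.z = 0 ∨ u.z = (cm t t').z ∨ u.z = -(cm t t').z by
      revert k'; generalize u.z = x; generalize (cm t t').z = y; revert x y; decide) with l | l | l
    · rw [show u = 1 by ext <;> simp [*], hβ.1.one]
      exact one_mem _
    · rwa [show u = cm t t' by ext <;> simp [*]]
    · rw [show u = (cm t t')⁻¹ by ext <;> simp [*], hβ.1.inv (cm_mem ht ht')]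
      exact inv_mem e
  let e' : Co := vv 0 1 0 (m.a * m.d + m.b) 0 0
  have eA : e' ∈ sA := vv_mem ..
  have y3 : cm e' m ∈ sZ3 := by simp [mem_sZ3, cm_d, cm_e, e', vv]
  have yf : (cm e' m).f = -m.a := by simp [cm_f, e', vv]
  have yg : (cm e' m).g = m.b := by simp [cm_g, e', vv]; grind
  have yh : (cm e' m).h = m.d + m.a * m.b := by simp [cm_h, e', vv]; grind
  obtain ⟨y, hy⟩ : ∃ y, y = cm e' m := ⟨_, rfl⟩
  rw [← hy] at y3 yf yg yh
  obtain ⟨y1, y2, y4, y5, y6⟩ := id y3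
  by_cases hE : y ∈ E
  · refine key h eA (mem_normalizer_fintype fun t ht => ?_) fun i j k => ?_
    · have hm' : ∀ n : ℕ, e' * m ^ n * e'⁻¹ ∈ E := fun n => by
        rw [← conj_pow, conj_eq_cm, ← hy]
        exact pow_mem (mul_mem (h.ME hm) hE) n
      obtain ⟨n, hn⟩ : ∃ n : ℕ, (n : F3) = t.a * m.a := ⟨(t.a * m.a).val, ZMod.natCast_zmod_val _⟩
      have h1 : t * (m ^ n)⁻¹ ∈ E := mul_mem ht (inv_mem (pow_mem (h.ME hm) n))
      obtain ⟨u, hu⟩ : ∃ u, u = t * (m ^ n)⁻¹ := ⟨_, rfl⟩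
      have ua : u.a = 0 := by rw [hu, Co.mul_a, Co.inv_a, pow_a, hn, mul_assoc, aa]; ring
      rw [← hu] at h1
      have ub : u.b = 0 := by rw [cb u h1, ua, mul_zero]
      have ud : u.d = 0 := by
        have := hz y hE u h1 (cm_Z3_D y3 ⟨ua, ub⟩)
        simpa [cm_z, ua, ub, y1, y2, y4, y5, y6, yf, ha, two] using this
      have : e' * t * e'⁻¹ = u * (e' * m ^ n * e'⁻¹) := by
        rw [← mul_assoc, ← mul_assoc, ← comm_A eA ⟨ua, ub, ud⟩, hu]; group
      rw [this]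
      exact mul_mem h1 (hm' n)
    · have h1 := congrArg Co.f (c1 _ k)
      have h2 := congrArg Co.z (c1 _ k)
      simp [cm_f, xh, sm, e', vv, ha] at h1
      simp [cm_z, xh, sm, e', vv, ha, h1] at h2
      exact ⟨h2.resolve_left (by decide), h1⟩
  · refine key h (Z3_le_A y3) (mem_nor fun t ht => hZ ?_) fun i j k => ?_
    · obtain ⟨k1, k2, k3, k4, k5, k6, k7⟩ := cm_Z3_S y3 t
      refine ⟨k1, k2, k3, k4, k5, k6, k7, ?_⟩
      simp [cm_h, cb t ht, y1, y2, y4, y5, y6, yf, yg]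
      linear_combination m.b * t.a * aa
    · have h2 := congrArg Co.z (c1 _ k)
      simp [cm_z, xh, sm, vv, y5, y6, yf, yg, yh] at h2
      have hi : i = 0 := by clear hy c1 cb hz k; grind
      rw [hi, xh_zero, one_mul] at k
      exact ⟨hi, by_contra fun hj => hE (mem_of_sm (Z3_le_A y3) hj k)⟩

end H44.C3
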