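/- Tower C3 (S5227), slots NA and N0: the elementary abelian candidates are not essential. -/
import Cfsg.Agent.H20.C3Spec

set_option autoImplicit false

namespace H44.C3

open Subgroup H92 H90.RF H20.C3 Matrix Cfsg
open H90.U5 (Dt exists_dt)

theorem sem {n : ℕ} {M : F3 → F3 → F3 → Matrix (Fin n) (Fin n) F3} {E : Subgroup Co}
    {Y H : Subgroup (MulAut E)} (D : Dt 3 E Y H) (φ : (Fin n → F3) → Co) (ψ : Co → Fin n → F3)
    (h1 : ∀ v, φ v ∈ E) (h2 : ∀ v w, φ (v + w) = φ v * φ w) (h3 : ∀ v, ψ (φ v) = v)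
    (h4 : ∀ u ∈ E, φ (ψ u) = u) (s : F3 → F3 → F3 → Co)
    (h5 : ∀ a b d v, s a b d * φ v * (s a b d)⁻¹ = φ (M a b d *ᵥ v))
    (h6 : ∀ g ∈ normalizer (E : Set Co), ∃ a b d, ∀ u ∈ E, g * u * g⁻¹ = s a b d * u * (s a b d)⁻¹)
    (h7 : ∀ a b d, M a b d = 1 → a = 0 ∧ b = 0 ∧ d = 0) :
    ∃ ρ j, SEm M (X := Y) ρ j (H.subgroupOf Y) := by
  have ext : ∀ A B : Matrix (Fin n) (Fin n) F3, (∀ v, A *ᵥ v = B *ᵥ v) → A = B := fun A B e =>
    Matrix.toLin'.injective (LinearMap.ext e)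
  have hs : ∀ a b d, s a b d ∈ normalizer (E : Set Co) := fun a b d =>
    mem_normalizer_fintype fun u hu => by rw [← h4 u hu, h5]; exact h1 _
  have ad : ∀ u ∈ E, ∀ w ∈ E, ψ (u * w) = ψ u + ψ w := fun u hu w hw => by
    conv_lhs => rw [← h4 u hu, ← h4 w hw, ← h2, h3]
  have ex : ∀ α : MulAut E, ∃ A : Matrix (Fin n) (Fin n) F3, ∀ v, A *ᵥ v = ψ (af α (φ v)) := fun α =>
    ⟨LinearMap.toMatrix' ((AddMonoidHom.mk' (fun v => ψ (af α (φ v))) fun v w => by
      rw [h2, (au_af α).mul _ (h1 v) _ (h1 w), ad _ (af_mem α (h1 v)) _ (af_mem α (h1 w))]).toZModLinearMap 3),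
      fun v => by rw [← Matrix.toLin'_apply, Matrix.toLin'_toMatrix']; rfl⟩
  choose r hr using ex
  let ρ : Y →* Matrix (Fin n) (Fin n) F3 :=
    { toFun := fun α => r α
      map_one' := ext _ _ fun v => by rw [hr, one_mulVec, OneMemClass.coe_one, af_one_apply, h3]
      map_mul' := fun α β => ext _ _ fun v => by
        rw [← mulVec_mulVec, hr, hr, hr, h4 _ (af_mem _ (h1 v)), coe_mul, af_mul_apply] }
  have rj : ∀ a b d, r (cAut E _ (hs a b d)) = M a b d := fun a b d => ext _ _ fun v => by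
    rw [hr, af_cAut _ (h1 v), h5, h3]
  refine ⟨ρ, fun a b d => ⟨cAut E _ (hs a b d), D.cY _⟩, fun α β e => Subtype.ext (aut_ext fun u hu => ?_),
    rj, fun k => ?_, fun e => D.nle (subgroupOf_eq_top.1 e), fun a b d => D.le (cAut_mem _ trivial),
    fun g hg a b d k => h7 a b d (ext _ _ fun v => ?_)⟩
  · have := (hr α (ψ u)).symm.trans ((congrArg (· *ᵥ ψ u) e).trans (hr β (ψ u)))
    rw [h4 u hu] at this
    rw [← h4 _ (af_mem α hu), this, h4 _ (af_mem _ hu)]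
  · have c : Nat.card (autInducedBy ⊤ E) ≤ Nat.card (F3 × F3 × F3) :=
      Nat.card_le_card_of_surjective (fun x => ⟨cAut E _ (hs x.1 x.2.1 x.2.2), cAut_mem _ trivial⟩)
        fun ⟨α, hα⟩ => by
          obtain ⟨g, -, e⟩ := mem_autInducedBy.1 hα
          obtain ⟨a, b, d, e'⟩ := h6 g (mem_normalizer_of_af e)
          exact ⟨(a, b, d), Subtype.ext (aut_ext fun u hu => by rw [af_cAut _ hu, e u hu, e' u hu])⟩
    rw [← card_mul_index ((autInducedBy ⊤ E).subgroupOf Y),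
      Nat.card_congr (subgroupOfEquivOfLe D.syl.le).toEquiv] at k
    have := Nat.le_of_dvd Nat.card_pos (((Nat.prime_three.coprime_iff_not_dvd.2
      D.syl.not_dvd_relIndex).pow_left 4).dvd_of_dvd_mul_right k)
    simp only [Nat.card_prod, Nat.card_zmod] at c
    omega
  · obtain ⟨e, he, k'⟩ := mem_Inn.1 (D.ti g g.2 hg _ (cAut_mem (hs a b d) trivial) k)
    rw [← rj, hr, k' _ (h1 v), ← h4 e he, ← h2, add_comm, h2, mul_inv_cancel_right, h3, one_mulVec]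

theorem jobNA : JobNA := fun h F hF hE => by
  obtain ⟨Y, H, D⟩ := exists_dt pgroup_Co hF hE
  obtain ⟨ρ, j, k⟩ := sem (M := uM) D (fun v => vv (v 0) (v 1) (v 2) (v 3) (v 4) (v 5))
    (fun u => ![u.c, u.e, u.f, u.g, u.h, u.z]) (fun _ => ⟨rfl, rfl, rfl⟩)
    (fun v w => by ext <;> simp [vv]) (fun v => by ext i; fin_cases i <;> rfl)
    (fun u hu => by ext <;> simp [vv, hu.1, hu.2.1, hu.2.2]) uu
    (fun a b d v => by ext <;> simp [vv, uu, uM, mulVec, dotProduct, Fin.sum_univ_succ] <;> ring)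
    (fun g _ => ⟨g.a, g.b, g.d, fun u hu => by ext <;> simp [uu, hu.1, hu.2.1, hu.2.2] <;> ring⟩)
    fun a b d e => ⟨congrFun (congrFun e 2) 1, congrFun (congrFun e 1) 0, congrFun (congrFun e 2) 0⟩
  exact h Y ρ j _ k

theorem jobN0 : JobN0 := fun h F hF l hE => by
  obtain ⟨Y, H, D⟩ := exists_dt pgroup_Co hF hE
  obtain ⟨ρ, j, k⟩ := sem (M := uM5) D
    (fun v => (xc l)⁻¹ * ⟨0, -v 0, -v 1, 0, 0, 0, v 2, v 3, v 4⟩ * xc l)
    (fun u => ![-u.b, -u.d, (xc l * u * (xc l)⁻¹).g, (xc l * u * (xc l)⁻¹).h, (xc l * u * (xc l)⁻¹).z])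
    (fun v => by simp [mem_sE0, xc, mul_comm])
    (fun v w => by ext <;> simp [xc] <;> ring) (fun v => by ext i; fin_cases i <;> simp [xc, mul_assoc])
    (fun u hu => by ext <;> simp [xc, hu.1, hu.2.1, hu.2.2.1, hu.2.2.2] <;> ring)
    (fun a b d => (xc l)⁻¹ * ⟨a, 0, 0, 0, b, d, 0, 0, 0⟩ * xc l)
    (fun a b d v => by ext <;> simp [xc, uM5, mulVec, dotProduct, Fin.sum_univ_succ] <;> grind)
    (fun g hg => ⟨g.a, g.e - l * g.b, g.f - l * g.d, fun u hu => by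
      have c : g.c = 0 := by
        have := ((mem_normalizer_iff.1 hg ⟨0, 1, 0, 0, l, 0, 0, 0, 0⟩).1 (by simp [mem_sE0])).2.2.1
        simp at this
        grind
      ext <;> simp [xc, c, hu.1, hu.2.1, hu.2.2.1, hu.2.2.2] <;> grind⟩)
    fun a b d e => by
      have e1 : a = 0 := congrFun (congrFun e 1) 0
      have e2 : b = 0 := congrFun (congrFun e 3) 1
      have e3 : a * b + d = 0 := congrFun (congrFun e 3) 0
      exact ⟨e1, e2, by simpa [e1] using e3⟩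
  exact h Y ρ j _ k

end H44.C3
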