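/- CL3 tower, slots END and PEnd. -/
import Cfsg.Agent.H91.CL3Spec

set_option autoImplicit false

namespace H44.CL3

open Subgroup H91.CL
open scoped commutatorElement

theorem aut_comm {K : Type*} [Field K] [Finite K] (σ τ : K ≃+* K) (x : K) : σ (τ x) = τ (σ x) := by
  obtain ⟨m, hm⟩ := MonoidHom.map_cyclic (Units.map (σ : K →* K))
  have h : ∀ x : K, x ≠ 0 → σ x = x ^ m := fun x hx => by
    simpa using congrArg Units.val (hm (Units.mk0 x hx))
  rcases eq_or_ne x 0 with rfl | hx
  · simp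
  · rw [h x hx, h _ (by simpa using hx), map_zpow₀]

theorem lin_comm {K V Γ : Type} [Field K] [Finite K] [AddCommGroup V] [Module K V] [Group Γ]
    [DistribMulAction Γ V] {a b : Γ} (ha : Semi K V a) (hb : Semi K V b) : Lin K V ⁅a, b⁆ := by
  obtain ⟨σ, ha⟩ := ha
  obtain ⟨τ, hb⟩ := hb
  intro c v
  obtain ⟨c, rfl⟩ := (σ.trans τ).surjective c
  obtain ⟨v, rfl⟩ := MulAction.surjective (b * a) v
  have e : ⁅a, b⁆ * (b * a) = a * b := by rw [commutatorElement_def]; group
  dsimp only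
  rw [← mul_smul ⁅a, b⁆ (b * a), e, RingEquiv.trans_apply, mul_smul b, ← hb, ← ha, ← mul_smul b,
    ← mul_smul ⁅a, b⁆, e, mul_smul, hb, ha, mul_smul, aut_comm]

theorem jobEND : JobEND := by
  intro K V Γ _ _ _ _ _ _ _ _ _ _ sc G H s S st hc hP
  have h1 : SolMod H (· ∈ (linG K V Γ).subgroupOf H) :=
    (SolMod.of_forall (P := fun _ => True) fun _ => trivial).step _ fun a b _ _ =>
      lin_comm (s.semi a a.2) (s.semi b b.2)
  have h2 := SolMod.forall fun E : {E // Piece V sc G E} => hP E.1 E.2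
  have := solv_of_le s.sol st.le
  refine SolMod.solvable (S.subgroupOf H) ((h1.and h2).mono fun h ⟨hl, hE⟩ => ?_)
    (Group.isSolvable_of_isSolvable_injective
      (f := (subgroupOfEquivOfLe (st.le.trans s.le)).toMonoidHom)
      (subgroupOfEquivOfLe (st.le.trans s.le)).injective)
  let T : Subgroup Γ :=
    { carrier := {x | x ∈ H ∧ ⁅(h : Γ), x⁆ ∈ sc.range}
      one_mem' := ⟨one_mem _, by simp⟩
      mul_mem' := fun {a b} ha hb => ⟨mul_mem ha.1 hb.1, by
        rw [show ⁅(h : Γ), a * b⁆ = ⁅(h : Γ), a⁆ * (a * ⁅(h : Γ), b⁆ * a⁻¹) by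
          simp only [commutatorElement_def]; group]
        exact mul_mem ha.2 (s.conj_mem (s.semi a ha.1) hb.2)⟩
      inv_mem' := fun {a} ha => ⟨inv_mem ha.1, by
        rw [show ⁅(h : Γ), a⁻¹⁆ = a⁻¹ * ⁅(h : Γ), a⁆⁻¹ * a⁻¹⁻¹ by
          simp only [commutatorElement_def]; group]
        exact s.conj_mem (s.semi a ha.1).inv (inv_mem ha.2)⟩ }
  have h3 : S ≤ T := st.gen.trans (sup_le (by
    rintro _ ⟨c, rfl⟩
    exact ⟨s.le (s.scG ⟨c, rfl⟩), by
      rw [commutatorElement_eq_one_iff_mul_comm.2 (s.comm_sc (a := (h : Γ)) hl c)]; exact one_mem _⟩)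
    (sSup_le fun E hE' x hx => ⟨s.le (hE'.le hx), hE ⟨E, hE'⟩ x hx⟩))
  obtain ⟨s₀, h4, h5⟩ := st.inn.hom h hl fun x hx => (h3 hx).2
  exact (mul_mem_cancel_left (inv_mem h4)).1 (st.cls.sc_le (hc _ h5))

/-- A copy of a group. -/
def Cp (H : Type) : Type := H

instance {H : Type} [i : Group H] : Group (Cp H) := i
instance {H : Type} [i : Finite H] : Finite (Cp H) := i

theorem jobPEnd : JobPEnd := by
  intro V G _ _ _ _ _ H _ _ _ hL hG hT hA
  have ad : ∀ (h : H) (x y : V), h • (x + y) - h • 0 = h • x - h • 0 + (h • y - h • 0) :=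
    fun h => hA ((MulAction.toPerm h).trans (Equiv.subRight (h • 0))) (sub_self _) fun x y z => by
      obtain ⟨c, g, h1, h2, h3⟩ := hT h x y z
      refine ⟨c - h • 0, g, ?_, ?_, ?_⟩ <;>
        simp only [Equiv.trans_apply, MulAction.toPerm_apply, Equiv.subRight_apply, h1, h2, h3] <;>
        abel
  let φ : H →* Cp H := MonoidHom.id H
  let _ : DistribMulAction (Cp H) V :=
    { smul := fun (h : H) v => h • v - h • 0
      one_smul := fun v => show (1 : H) • v - (1 : H) • 0 = v by simp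
      mul_smul := fun (a b : H) v => show (a * b) • v - (a * b) • 0 = a • (b • v - b • 0) - a • 0 by
        have := ad a (b • v - b • 0) (b • 0)
        rw [sub_add_cancel] at this
        rw [mul_smul, mul_smul, ← sub_sub_sub_cancel_right _ _ (a • 0), this, add_sub_cancel_right]
      smul_zero := fun _ => sub_self _
      smul_add := ad }
  have h1 := (hL V G (Cp H) (Nat.lt_succ_self _) hG fun (h : H) u v => by
    obtain ⟨c, g, h1, h2, h3⟩ := hT h 0 u v
    refine ⟨g, 1, 1, ?_, ?_⟩ <;> change h • _ - h • 0 = _ <;>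
      simp only [h1, h2, h3, smul_zero, one_smul] <;> abel).comap φ
  refine (h1.step (MulAction.toPermHom H V).ker fun a b ha hb => ?_).mono fun a ha x =>
    congrArg (· x) (MonoidHom.mem_ker.1 ha)
  have e : ∀ a : H, (∀ x : V, φ a • x = x) → ∀ x : V, a • x = x + a • 0 := fun a ha x =>
    sub_eq_iff_eq_add.1 (ha x)
  rw [MonoidHom.mem_ker, map_commutatorElement, commutatorElement_eq_one_iff_mul_comm]
  ext x
  change a • b • x = b • a • x
  rw [e a ha (b • x), e b hb (a • x), e a ha x, e b hb x, add_right_comm]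

end H44.CL3
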