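/- S3275 chapter (1), slot UB: the homocyclic subgroup `4⁴`. -/
import Cfsg.Agent.H48.DP1Spec

set_option autoImplicit false

namespace H44.DPUB
open Subgroup H48.DP

universe u
variable {G : Type*} [Group G]

theorem nf2 {a b : G} (h : Commute a b) {g : G} (hg : g ∈ closure ({a, b} : Set G)) :
    ∃ i j : ℤ, g = a ^ i * b ^ j := by
  induction hg using closure_induction with
  | mem x hx =>
    rcases hx with rfl | rfl
    · exact ⟨1, 0, by simp⟩
    · exact ⟨0, 1, by simp⟩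
  | one => exact ⟨0, 0, by simp⟩
  | mul x y _ _ hx hy =>
    obtain ⟨i, j, rfl⟩ := hx
    obtain ⟨k, l, rfl⟩ := hy
    exact ⟨i + k, j + l, by rw [(h.symm.zpow_zpow j k).mul_mul_mul_comm, zpow_add, zpow_add]⟩
  | inv x _ hx =>
    obtain ⟨i, j, rfl⟩ := hx
    exact ⟨-i, -j, by rw [(h.zpow_zpow i j).eq, mul_inv_rev, zpow_neg, zpow_neg]⟩

theorem com_closure {S : Set G} {g n : G} (h : ∀ x ∈ S, Commute g x) (hn : n ∈ closure S) :
    Commute g n := by
  induction hn using closure_induction with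
  | mem x hx => exact h x hx
  | one => exact Commute.one_right g
  | mul x y _ _ hx hy => exact hx.mul_right hy
  | inv x _ hx => exact hx.inv_right

theorem zp4 {a : G} (h : a ^ 4 = 1) {i : ℤ} (hi : 4 ∣ i) : a ^ i = 1 := by
  obtain ⟨k, rfl⟩ := hi
  rw [zpow_mul, show a ^ (4 : ℤ) = 1 by exact_mod_cast h, one_zpow]

theorem cfix {g y : G} (h : Commute g y) : g * y * g⁻¹ = y := by rw [h.eq, mul_inv_cancel_right]

theorem com_of {g y : G} (h : g * y * g⁻¹ = y) : Commute g y := mul_inv_eq_iff_eq_mul.1 h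

theorem com_cj {g y : G} (h : Commute g y) (x : G) : Commute (x * g * x⁻¹) (x * y * x⁻¹) := by
  simpa using h.map (MulAut.conj x)

theorem conj_zpow_t {w t d : G} (h : w * t * w⁻¹ = t * d) (c : Commute w d) (k : ℤ) :
    w ^ k * t * (w ^ k)⁻¹ = t * d ^ k := by
  have h' : w⁻¹ * t * w = t * d⁻¹ := by
    rw [eq_mul_inv_iff_mul_eq, mul_assoc, c.eq, ← mul_assoc, mul_assoc w⁻¹, ← h]
    group
  induction k using Int.induction_on with
  | zero => simp
  | succ i ih =>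
    calc w ^ ((i : ℤ) + 1) * t * (w ^ ((i : ℤ) + 1))⁻¹
        = w * (w ^ (i : ℤ) * t * (w ^ (i : ℤ))⁻¹) * w⁻¹ := by group
      _ = w * t * w⁻¹ * (w * d ^ (i : ℤ) * w⁻¹) := by rw [ih]; group
      _ = _ := by rw [h, cfix (c.zpow_right _)]; group
  | pred i ih =>
    calc w ^ (-(i : ℤ) - 1) * t * (w ^ (-(i : ℤ) - 1))⁻¹
        = w⁻¹ * (w ^ (-(i : ℤ)) * t * (w ^ (-(i : ℤ)))⁻¹) * w := by group
      _ = w⁻¹ * t * w * (w⁻¹ * d ^ (-(i : ℤ)) * w⁻¹⁻¹) := by rw [ih]; group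
      _ = _ := by rw [h', cfix (c.zpow_right _).inv_left]; group

variable {L : Subgroup G} {a b s x y t e u f w : G}

section
variable (h : UW L a b s x y t e u f w)
include h

theorem tL {l : G} (hl : l ∈ L) : Commute t l := (mem_centralizer_iff.1 h.rc l hl).symm

theorem a2 : a ^ 2 ≠ 1 := fun e => by
  have := (h.ind 2 0 (by simpa using e)).1
  omega

theorem tt : t * t = 1 := by rw [← sq, ← h.t2, pow_orderOf_eq_one]

theorem inH {g : G} (h1 : Commute g t) (h2 : Commute g (a ^ 2)) (h3 : Commute g (b ^ 2)) :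
    g ∈ Hs a b ∨ g * t ∈ Hs a b := by
  obtain ⟨l, hl, k, hk, rfl⟩ := h.ct g h1
  have ck : ∀ m ∈ L, Commute l m ↔ Commute (l * k) m := fun m hm => by
    obtain ⟨i, rfl⟩ := mem_zpowers_iff.1 hk
    have := (tL h hm).zpow_left i
    exact ⟨fun c => c.mul_left this, fun c => by simpa using c.mul_left this.inv_left⟩
  have hH := h.cV l hl ((ck _ (pow_mem h.aL 2)).2 h2) ((ck _ (pow_mem h.bL 2)).2 h3)
  obtain ⟨i, rfl⟩ := mem_zpowers_iff.1 hk
  have e2 : t ^ (2 : ℤ) = 1 := by rw [zpow_two, tt h]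
  rcases Int.even_or_odd' i with ⟨j, rfl | rfl⟩
  · left
    rwa [zpow_mul, e2, one_zpow, mul_one]
  · right
    rwa [zpow_add, zpow_mul, e2, one_zpow, one_mul, zpow_one, mul_assoc, tt h, mul_one]

theorem inH' {g : G} (h1 : Commute g t) (h2 : Commute g (a ^ 2)) (h3 : Commute g (b ^ 2))
    (h4 : Commute g e) : g ∈ Hs a b := by
  refine (inH h h1 h2 h3).resolve_right fun hg => a2 h ?_
  have c : Commute e (g * t) := com_closure (by
    rintro _ (rfl | rfl)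
    exacts [h.ea, h.eb]) hg
  have c2 : Commute e t := by simpa using h4.symm.inv_right.mul_right c
  have := h.et
  rw [cfix c2] at this
  exact (left_eq_mul.1 this)

theorem fixH {g : G} (hg : g ∈ Hs a b) (hx : x * g * x⁻¹ = g) : g = 1 := by
  have ab : Commute a b := h.ab
  obtain ⟨i, j, rfl⟩ := nf2 ab hg
  have e1 : x * (a ^ i * b ^ j) * x⁻¹ = a ^ (-j) * b ^ (i - j) := by
    calc x * (a ^ i * b ^ j) * x⁻¹ = (x * a * x⁻¹) ^ i * (x * b * x⁻¹) ^ j := by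
          rw [conj_zpow, conj_zpow]; group
      _ = b ^ i * (a ^ (-j) * b ^ (-j)) := by rw [h.xa, h.xb, inv_zpow', ab.mul_zpow]
      _ = _ := by rw [← mul_assoc, (ab.symm.zpow_zpow i (-j)).eq]; group
  rw [e1] at hx
  have e2 : a ^ (i + j) * b ^ (j - (i - j)) = 1 := by
    calc a ^ (i + j) * b ^ (j - (i - j)) = a ^ j * (a ^ i * b ^ j) * (b ^ (i - j))⁻¹ := by group
      _ = 1 := by rw [← hx]; group
  obtain ⟨h1, h2⟩ := h.ind _ _ e2
  rw [zp4 h.a4 (by omega), zp4 h.b4 (by omega), one_mul]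

theorem inV {g : G} (hg : g ∈ Hs a b) (h2 : g * g = 1) : g ∈ V0 a b := by
  have ab : Commute a b := h.ab
  obtain ⟨i, j, rfl⟩ := nf2 ab hg
  rw [(ab.symm.zpow_zpow j i).mul_mul_mul_comm, ← zpow_add, ← zpow_add] at h2
  obtain ⟨h1, h2⟩ := h.ind _ _ h2
  obtain ⟨i', rfl⟩ : 2 ∣ i := by omega
  obtain ⟨j', rfl⟩ : 2 ∣ j := by omega
  rw [zpow_mul, zpow_mul, zpow_ofNat, zpow_ofNat]
  exact mul_mem (zpow_mem (subset_closure (by simp)) _) (zpow_mem (subset_closure (by simp)) _)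

theorem ind2 {k l : ℤ} (e : (a ^ 2 * b ^ 2) ^ k * (a⁻¹ ^ 2) ^ l = 1) : 2 ∣ k ∧ 2 ∣ l := by
  have ab : Commute a b := h.ab
  have e1 : a ^ (2 * k - 2 * l) * b ^ (2 * k) = 1 := by
    rw [← e, (ab.pow_pow 2 2).mul_zpow, mul_assoc,
      (((ab.symm.inv_right.pow_pow 2 2).zpow_zpow k l)).eq, ← mul_assoc]
    group
  obtain ⟨h1, h2⟩ := h.ind _ _ e1
  omega

end

theorem jobUB : JobUB.{u} := by
  intro G _ _ L a b s x y t e u f w h
  have ab : Commute a b := h.ab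
  have a4 := h.a4
  have b4 := h.b4
  have si : s⁻¹ = s := inv_eq_of_mul_eq_one_right h.s2
  have sb : s * b * s⁻¹ = a := by
    rw [← h.sa]
    calc s * (s * a * s⁻¹) * s⁻¹ = (s * s) * a * (s * s)⁻¹ := by group
      _ = a := by rw [h.s2]; group
  have ta := tL h h.aL
  have tb := tL h h.bL
  have ts := tL h h.sL
  have tx := tL h h.xL
  have x3 : ∀ g : G, x * (x * (x * g * x⁻¹) * x⁻¹) * x⁻¹ = g := fun g => by
    calc x * (x * (x * g * x⁻¹) * x⁻¹) * x⁻¹ = x ^ 3 * g * (x ^ 3)⁻¹ := by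
          simp only [pow_succ, pow_zero]; group
      _ = g := by rw [h.x3]; group
  have sab : s * a ^ 2 * s⁻¹ = b ^ 2 := by rw [← h.sa, conj_pow]
  have xa2 : x * a ^ 2 * x⁻¹ = b ^ 2 := by rw [← h.xa, conj_pow]
  have aa : a ^ 2 * a ^ 2 = 1 := by rw [← a4]; group
  have bb : b ^ 2 * b ^ 2 = 1 := by rw [← b4]; group
  have zz : a ^ 2 * b ^ 2 * (a ^ 2 * b ^ 2) = 1 := by
    rw [(ab.symm.pow_pow 2 2).mul_mul_mul_comm, aa, bb, one_mul]
  have xab : x * (a * b) * x⁻¹ = a⁻¹ := by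
    calc x * (a * b) * x⁻¹ = x * a * x⁻¹ * (x * b * x⁻¹) := by group
      _ = a⁻¹ := by rw [h.xa, h.xb]; group
  have xz : x * (a ^ 2 * b ^ 2) * x⁻¹ = a ^ 2 := by
    rw [← ab.mul_pow, ← conj_pow, xab, inv_pow, inv_eq_of_mul_eq_one_right aa]
  obtain ⟨e', he'⟩ : ∃ e', e' = s * e * s⁻¹ := ⟨_, rfl⟩
  have e'a : Commute e' a := by rw [he', ← sb]; exact com_cj h.eb s
  have e'b : Commute e' b := by rw [he', ← h.sa]; exact com_cj h.ea s
  have ee' : Commute e e' := he' ▸ h.es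
  have e'2 : e' * e' = 1 := by rw [he', conj_mul, h.e2]; group
  have e't : e' * t * e'⁻¹ = t * b ^ 2 := by
    calc e' * t * e'⁻¹ = s * (e * (s⁻¹ * t * s⁻¹⁻¹) * e⁻¹) * s⁻¹ := by rw [he']; group
      _ = s * t * s⁻¹ * (s * a ^ 2 * s⁻¹) := by rw [cfix ts.symm.inv_left, h.et]; group
      _ = _ := by rw [cfix ts.symm, sab]
  have ud : u = e * e' := by rw [he', h.ud]
  -- the group `A`
  have cA : ∀ g, Commute g (a ^ 2) → Commute g (b ^ 2) → Commute g e → Commute g e' →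
      ∀ n ∈ As a b s e, Commute g n := fun g h1 h2 h3 h4 n hn => com_closure (by
    rintro _ (rfl | rfl | rfl | rfl)
    exacts [h1, h2, h3, he' ▸ h4]) hn
  have eA : e ∈ As a b s e := subset_closure (by simp)
  have e'A : e' ∈ As a b s e := subset_closure (by simp [he'])
  have a2A : a ^ 2 ∈ As a b s e := subset_closure (by simp)
  have b2A : b ^ 2 ∈ As a b s e := subset_closure (by simp)
  have aA := cA a ((Commute.refl a).pow_right 2) (ab.pow_right 2) h.ea.symm e'a.symm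
  have bA := cA b (ab.symm.pow_right 2) ((Commute.refl b).pow_right 2) h.eb.symm e'b.symm
  have AA : ∀ m ∈ As a b s e, ∀ n ∈ As a b s e, Commute m n := fun m hm =>
    cA m ((aA m hm).symm.pow_right 2) ((bA m hm).symm.pow_right 2)
      (cA e (h.ea.pow_right 2) (h.eb.pow_right 2) (Commute.refl e) ee' m hm).symm
      (cA e' (e'a.pow_right 2) (e'b.pow_right 2) ee'.symm (Commute.refl e') m hm).symm
  have xA : ∀ n, n ∈ As a b s e ↔ x * n * x⁻¹ ∈ As a b s e := mem_normalizer_iff.1 h.xA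
  have xC : ∀ g, (∀ n ∈ As a b s e, Commute g n) → ∀ n ∈ As a b s e, Commute (x * g * x⁻¹) n :=
    fun g hg n hn => by
      have := com_cj (hg (x⁻¹ * n * x) ((xA _).2 (by simpa [mul_assoc] using hn))) x
      simpa [mul_assoc] using this
  have wA : ∀ n ∈ As a b s e, Commute w n := cA w h.wa2
    (by rw [← sab]; exact (h.ws.mul_right h.wa2).mul_right h.ws.inv_right) h.we
    (by rw [he']; exact (h.ws.mul_right h.we).mul_right h.ws.inv_right)
  have uA : u ∈ As a b s e := ud ▸ mul_mem eA e'A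
  have u2 : u * u = 1 := by rw [ud, ee'.symm.mul_mul_mul_comm, h.e2, e'2, one_mul]
  have ut : u * t * u⁻¹ = t * (a ^ 2 * b ^ 2) := by
    calc u * t * u⁻¹ = e * (e' * t * e'⁻¹) * e⁻¹ := by rw [ud]; group
      _ = e * t * e⁻¹ * (e * b ^ 2 * e⁻¹) := by rw [e't]; group
      _ = _ := by rw [h.et, cfix (h.eb.pow_right 2), mul_assoc]
  have xt : ∀ g d, g * t * g⁻¹ = t * d →
      x * g * x⁻¹ * t * (x * g * x⁻¹)⁻¹ = t * (x * d * x⁻¹) := fun g d e => by
    calc x * g * x⁻¹ * t * (x * g * x⁻¹)⁻¹ = x * (g * (x⁻¹ * t * x⁻¹⁻¹) * g⁻¹) * x⁻¹ := by group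
      _ = x * t * x⁻¹ * (x * d * x⁻¹) := by rw [cfix tx.symm.inv_left, e]; group
      _ = _ := by rw [cfix tx.symm]
  obtain ⟨u1, hu1⟩ : ∃ u1, u1 = x * u * x⁻¹ := ⟨_, rfl⟩
  obtain ⟨u3, hu3⟩ : ∃ u3, u3 = x * u1 * x⁻¹ := ⟨_, rfl⟩
  obtain ⟨v, hv⟩ : ∃ v, v = x * w * x⁻¹ := ⟨_, rfl⟩
  obtain ⟨r, hr⟩ : ∃ r, r = x * v * x⁻¹ := ⟨_, rfl⟩
  have u1A : u1 ∈ As a b s e := hu1 ▸ (xA u).1 uA
  have u3A : u3 ∈ As a b s e := hu3 ▸ (xA u1).1 u1A
  have vA : ∀ n ∈ As a b s e, Commute v n := hv ▸ xC w wA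
  have rA : ∀ n ∈ As a b s e, Commute r n := hr ▸ xC v vA
  have u1t : u1 * t * u1⁻¹ = t * a ^ 2 := by rw [hu1, xt _ _ ut, xz]
  have u3t : u3 * t * u3⁻¹ = t * b ^ 2 := by rw [hu3, xt _ _ u1t, xa2]
  have u12 : u1 * u1 = 1 := by rw [hu1, conj_mul, u2]; group
  -- the norm of `u` is trivial
  have hN : u * u1 * u3 = 1 := by
    have hm := mul_mem (mul_mem uA u1A) u3A
    refine fixH h (inH' h (com_of ?_) (AA _ hm _ a2A) (AA _ hm _ b2A) (AA _ hm _ eA)) ?_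
    · calc u * u1 * u3 * t * (u * u1 * u3)⁻¹ = u * (u1 * (u3 * t * u3⁻¹) * u1⁻¹) * u⁻¹ := by group
        _ = u * (u1 * t * u1⁻¹ * (u1 * b ^ 2 * u1⁻¹)) * u⁻¹ := by rw [u3t]; group
        _ = u * t * u⁻¹ * (u * (a ^ 2 * b ^ 2) * u⁻¹) := by
          rw [u1t, cfix (AA _ u1A _ b2A)]; group
        _ = t := by rw [ut, cfix (AA _ uA _ (mul_mem a2A b2A)), mul_assoc, zz, mul_one]
    · calc x * (u * u1 * u3) * x⁻¹ = x * u * x⁻¹ * (x * u1 * x⁻¹) * (x * u3 * x⁻¹) := by group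
        _ = u1 * u3 * u := by rw [hu3, hu1, x3]
        _ = _ := by rw [(AA _ (mul_mem u1A u3A) _ uA).eq, mul_assoc]
  have wt : w * t * w⁻¹ = t * (a * b * u) := by rw [h.wt, mul_assoc]
  have vt : v * t * v⁻¹ = t * (a⁻¹ * u1) := by
    rw [hv, xt _ _ wt, hu1, ← xab]; group
  have rt : r * t * r⁻¹ = t * (b⁻¹ * u3) := by
    rw [hr, xt _ _ vt, hu3, ← h.xa]; group
  have gt : w * v * r * t * (w * v * r)⁻¹ =
      t * (a * b * u * (w * (a⁻¹ * u1 * (v * b⁻¹ * v⁻¹)) * w⁻¹) * u3) := by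
    calc w * v * r * t * (w * v * r)⁻¹ = w * (v * (r * t * r⁻¹) * v⁻¹) * w⁻¹ := by group
      _ = w * (v * t * v⁻¹ * (v * b⁻¹ * v⁻¹) * (v * u3 * v⁻¹)) * w⁻¹ := by rw [rt]; group
      _ = w * t * w⁻¹ * (w * (a⁻¹ * u1 * (v * b⁻¹ * v⁻¹)) * w⁻¹) * (w * u3 * w⁻¹) := by
        rw [vt, cfix (vA _ u3A)]; group
      _ = _ := by rw [wt, cfix (wA _ u3A)]; group
  have gA : ∀ n ∈ As a b s e, Commute (w * v * r) n := fun n hn =>
    ((wA n hn).mul_left (vA n hn)).mul_left (rA n hn)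
  have xc : ∀ g c d, g * c * g⁻¹ = d →
      x * g * x⁻¹ * (x * c * x⁻¹) * (x * g * x⁻¹)⁻¹ = x * d * x⁻¹ := fun g c d e => by
    rw [← e]; group
  have zA := mul_mem a2A b2A
  have w2 : w ^ 2 = u := by
    refine h.wc.resolve_right fun w2 => a2 h ?_
    have e1 : a * w * a⁻¹ = w * (a ^ 2 * b ^ 2) := by
      rw [h.wa, w2, mul_assoc, mul_assoc, (AA _ zA _ uA).eq, ← mul_assoc u, u2, one_mul]
    have wa : w * a * w⁻¹ = a * (a ^ 2 * b ^ 2) := by
      have : w = a * w * a⁻¹ * (a ^ 2 * b ^ 2) := by rw [e1, mul_assoc, zz, mul_one]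
      calc w * a * w⁻¹ = a * w * a⁻¹ * (a ^ 2 * b ^ 2) * a * w⁻¹ := by rw [← this]
        _ = a * (w * (a⁻¹ * (a ^ 2 * b ^ 2) * a⁻¹⁻¹) * w⁻¹) := by group
        _ = _ := by rw [cfix (aA _ zA).inv_left, cfix (wA _ zA)]
    have wb : w * b * w⁻¹ = b * (a ^ 2 * b ^ 2) := by
      calc w * b * w⁻¹ = (w * a * w⁻¹)⁻¹ * (w * (a * b) * w⁻¹) := by group
        _ = (a ^ 2 * b ^ 2)⁻¹ * b := by rw [wa, cfix h.wab]; group
        _ = _ := by rw [inv_eq_of_mul_eq_one_right zz, (bA _ zA).eq]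
    have vb : v * b * v⁻¹ = b * a ^ 2 := by
      have := xc _ _ _ wa
      rw [← hv, h.xa] at this
      calc v * b * v⁻¹ = x * a * x⁻¹ * (x * (a ^ 2 * b ^ 2) * x⁻¹) := by rw [this]; group
        _ = _ := by rw [h.xa, xz]
    have va : v * a * v⁻¹ = a := by
      have := xc _ _ _ (cfix h.wab)
      rw [← hv, xab] at this
      exact cfix (Commute.inv_right_iff.1 (com_of this))
    have ra : r * a * r⁻¹ = a * b ^ 2 := by
      have h1 := xc _ _ _ va
      have h2 := xc _ _ _ vb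
      rw [← hr, h.xa] at h1
      rw [← hr, h.xb] at h2
      calc r * a * r⁻¹ = (r * (a * b)⁻¹ * r⁻¹)⁻¹ * (r * b * r⁻¹)⁻¹ := by group
        _ = (x * b * x⁻¹ * (x * a ^ 2 * x⁻¹))⁻¹ * b⁻¹ := by rw [h1, h2]; group
        _ = (b ^ 2)⁻¹ * a := by rw [h.xb, xa2]; group
        _ = _ := by rw [inv_eq_of_mul_eq_one_right bb, (aA _ b2A).eq]
    have ga : w * v * r * a * (w * v * r)⁻¹ = a * a ^ 2 := by
      calc w * v * r * a * (w * v * r)⁻¹ = w * (v * (r * a * r⁻¹) * v⁻¹) * w⁻¹ := by group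
        _ = w * (v * a * v⁻¹ * (v * b ^ 2 * v⁻¹)) * w⁻¹ := by rw [ra]; group
        _ = w * a * w⁻¹ * (w * b ^ 2 * w⁻¹) := by rw [va, cfix (vA _ b2A)]; group
        _ = a * a ^ 2 * (b ^ 2 * b ^ 2) := by rw [wa, cfix (wA _ b2A)]; group
        _ = _ := by rw [bb, mul_one]
    have g1 : w * v * r * t * (w * v * r)⁻¹ = t * a ^ 2 := by
      have e2 : w * (a⁻¹ * u1 * (v * b⁻¹ * v⁻¹)) * w⁻¹ = (a * b)⁻¹ * u1 * a ^ 2 := by
        calc w * (a⁻¹ * u1 * (v * b⁻¹ * v⁻¹)) * w⁻¹ = w * (a⁻¹ * u1 * (v * b * v⁻¹)⁻¹) * w⁻¹ := by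
              group
          _ = w * (a⁻¹ * (u1 * (a ^ 2)⁻¹ * b⁻¹)) * w⁻¹ := by rw [vb]; group
          _ = w * (b * a)⁻¹ * w⁻¹ * (w * (u1 * (a ^ 2)⁻¹) * w⁻¹) := by
              rw [← (bA _ (mul_mem u1A (inv_mem a2A))).inv_left.eq]; group
          _ = _ := by
              rw [← ab.eq, cfix h.wab.inv_right, cfix (wA _ (mul_mem u1A (inv_mem a2A))),
                inv_eq_of_mul_eq_one_right aa, mul_assoc]
      rw [gt, e2]
      congr 1
      calc a * b * u * ((a * b)⁻¹ * u1 * a ^ 2) * u3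
          = a * b * u * (a * b)⁻¹ * u1 * (a ^ 2 * u3) := by group
        _ = u * u1 * u3 * a ^ 2 := by
          rw [cfix ((aA _ uA).mul_left (bA _ uA)), (AA _ a2A _ u3A).eq]; group
        _ = _ := by rw [hN, one_mul]
    have c1 : Commute (e * (w * v * r)) t := com_of (by
      calc e * (w * v * r) * t * (e * (w * v * r))⁻¹
          = e * (w * v * r * t * (w * v * r)⁻¹) * e⁻¹ := by group
        _ = e * t * e⁻¹ * (e * a ^ 2 * e⁻¹) := by rw [g1]; group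
        _ = t := by rw [h.et, cfix (h.ea.pow_right 2), mul_assoc, aa, mul_one])
    have aH : ∀ n ∈ Hs a b, Commute a n := fun n hn => com_closure (by
      rintro _ (rfl | rfl)
      exacts [Commute.refl _, ab]) hn
    have c2 : Commute a (e * (w * v * r)) := by
      rcases inH h c1 ((h.ea.pow_right 2).mul_left (gA _ a2A))
        ((h.eb.pow_right 2).mul_left (gA _ b2A)) with e3 | e3
      · exact aH _ e3
      · simpa using (aH _ e3).mul_right ta.symm.inv_right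
    have c3 : Commute a (w * v * r) := by simpa using h.ea.symm.inv_right.mul_right c2
    rw [cfix c3.symm] at ga
    exact left_eq_mul.1 ga
  have aw : Commute a w := com_of (by rw [h.wa, w2, mul_assoc, u2, mul_one])
  have bw : Commute b w := by simpa using aw.inv_left.mul_left h.wab.symm
  have stp : ∀ g, Commute a g → Commute b g →
      Commute a (x * g * x⁻¹) ∧ Commute b (x * g * x⁻¹) := fun g h1 h2 => by
    have h3 := com_cj (h1.mul_left h2) x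
    rw [xab] at h3
    exact ⟨Commute.inv_left_iff.1 h3, h.xa ▸ com_cj h1 x⟩
  obtain ⟨av, bv⟩ := hv ▸ stp w aw bw
  have g1 : Commute (w * v * r) t := com_of (by
    rw [gt, cfix bv.symm.inv_right, cfix ((aw.symm.inv_right.mul_right (wA _ u1A)).mul_right
      bw.symm.inv_right), mul_assoc a⁻¹, ← (bA _ u1A).inv_left.eq]
    calc t * (a * b * u * (a⁻¹ * (b⁻¹ * u1)) * u3)
        = t * (a * b * u * (b * a)⁻¹ * u1 * u3) := by group
      _ = t := by rw [← ab.eq, cfix ((aA _ uA).mul_left (bA _ uA)), hN, mul_one])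
  have gH := inH' h g1 (gA _ a2A) (gA _ b2A) (gA _ eA)
  have g2 : w * v * r = 1 := by
    refine fixH h gH ?_
    have c : Commute w (w * v * r) := com_closure (by
      rintro _ (rfl | rfl)
      exacts [aw.symm, bw.symm]) gH
    calc x * (w * v * r) * x⁻¹ = x * w * x⁻¹ * (x * v * x⁻¹) * (x * r * x⁻¹) := by group
      _ = w⁻¹ * (w * v * r) * w⁻¹⁻¹ := by rw [hr, hv, x3]; group
      _ = _ := cfix c.inv_left
  have v2 : v ^ 2 = u1 := by rw [hv, conj_pow, w2, hu1]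
  have r2 : r ^ 2 = u3 := by rw [hr, conj_pow, v2, hu3]
  have rw' : r = (w * v)⁻¹ := eq_inv_of_mul_eq_one_right g2
  have wv : Commute w v := by
    have e1 : (w * v) ^ 2 = w ^ 2 * v ^ 2 := by
      rw [w2, v2, ← inv_inv (w * v), ← rw', inv_pow, r2]
      exact inv_eq_of_mul_eq_one_left hN
    calc w * v = w⁻¹ * (w ^ 2 * v ^ 2) * v⁻¹ := by group
      _ = v * w := by rw [← e1, sq]; group
  have w4 : w ^ 4 = 1 := by rw [show w ^ 4 = w ^ 2 * w ^ 2 by group, w2, u2]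
  have v4 : v ^ 4 = 1 := by rw [show v ^ 4 = v ^ 2 * v ^ 2 by group, v2, u12]
  refine ⟨v, h, hv, w2, w4, aw, bw, av, bv, wv, hr ▸ rw', ?_, fun i j k l e0 => ?_⟩
  · have hm := mul_mem eA u1A
    rw [v2]
    refine inV h (inH' h (com_of ?_) (AA _ hm _ a2A) (AA _ hm _ b2A) (AA _ hm _ eA)) ?_
    · calc e * u1 * t * (e * u1)⁻¹ = e * (u1 * t * u1⁻¹) * e⁻¹ := by group
        _ = e * t * e⁻¹ * (e * a ^ 2 * e⁻¹) := by rw [u1t]; group
        _ = t := by rw [h.et, cfix (h.ea.pow_right 2), mul_assoc, aa, mul_one]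
    · rw [(AA _ u1A _ eA).mul_mul_mul_comm, h.e2, u12, one_mul]
  · have p2 : (a * b * u) ^ 2 = a ^ 2 * b ^ 2 := by
      rw [((aA _ uA).mul_left (bA _ uA)).mul_pow, ab.mul_pow, sq u, u2, mul_one]
    have q2 : (a⁻¹ * u1) ^ 2 = a⁻¹ ^ 2 := by
      rw [(aA _ u1A).inv_left.mul_pow, sq u1, u12, mul_one]
    have pq : Commute (a * b * u) (a⁻¹ * u1) :=
      ((((Commute.refl a).mul_left ab.symm).mul_left (aA _ uA).symm).inv_right).mul_right
        (((aA _ u1A).mul_left (bA _ u1A)).mul_left (AA _ uA _ u1A))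
    have e1 : (a * b * u) ^ k * (a⁻¹ * u1) ^ l = 1 := by
      have h1 := conj_zpow_t wt ((aw.symm.mul_right bw.symm).mul_right (wA _ uA)) k
      have h2 := conj_zpow_t vt (av.symm.inv_right.mul_right (vA _ u1A)) l
      have h3 : w ^ k * v ^ l = (a ^ i * b ^ j)⁻¹ :=
        eq_inv_of_mul_eq_one_right (by rw [← e0]; group)
      have h4 : Commute (w ^ k * v ^ l) t := by
        rw [h3]
        exact ((ta.zpow_right i).mul_right (tb.zpow_right j)).symm.inv_left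
      have h5 : t = t * ((a * b * u) ^ k * (a⁻¹ * u1) ^ l) := by
        calc t = w ^ k * v ^ l * t * (w ^ k * v ^ l)⁻¹ := (cfix h4).symm
          _ = w ^ k * (v ^ l * t * (v ^ l)⁻¹) * (w ^ k)⁻¹ := by group
          _ = w ^ k * t * (w ^ k)⁻¹ * (w ^ k * (a⁻¹ * u1) ^ l * (w ^ k)⁻¹) := by rw [h2]; group
          _ = _ := by
            rw [h1, cfix ((aw.symm.inv_right.mul_right (wA _ u1A)).zpow_zpow k l), mul_assoc]
      exact left_eq_mul.1 h5
    have sq2 : ∀ (g : G) (m : ℤ), g ^ (2 * m) = (g ^ 2) ^ m := fun g m => by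
      rw [zpow_mul, zpow_ofNat]
    obtain ⟨⟨k', rfl⟩, l', rfl⟩ : 2 ∣ k ∧ 2 ∣ l := by
      refine ind2 h ?_
      rw [← p2, ← q2, ← sq2, ← sq2, mul_comm 2 k, mul_comm 2 l, zpow_mul, zpow_mul,
        ← (pq.zpow_zpow k l).mul_zpow, e1, one_zpow]
    rw [sq2, sq2, p2, q2] at e1
    obtain ⟨h1, h2⟩ := ind2 h e1
    have h3 : 4 ∣ 2 * k' := by omega
    have h4 : 4 ∣ 2 * l' := by omega
    rw [zp4 w4 h3, zp4 v4 h4, mul_one, mul_one] at e0
    exact ⟨(h.ind _ _ e0).1, (h.ind _ _ e0).2, h3, h4⟩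

end H44.DPUB
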