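/- Tower E7T, slot MG8: `G₂(8)` on the 56-dimensional module. -/
import Cfsg.Agent.H40.E7TSpec
import Cfsg.Agent.H61.E7Mod
import Cfsg.Agent.H58.E7Lin

set_option autoImplicit false

namespace H44.E7T

open Module H40.E7S H40.E7T H61.E7M

universe u

variable {G : Type*} [Group G] {ρ : Representation (ZMod 2) G V56}

theorem inv_mem_kc {g h : G} {v : V56} (e : ∀ w, w = v ∨ w = ρ g v → ρ g (ρ h w) = ρ h (ρ g w))
    (hv : v ∈ kc (ρ g)) : ρ h v ∈ kc (ρ g) := by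
  rw [mem_kc] at hv ⊢
  rw [e v (.inl rfl), e _ (.inr rfl), ← map_add, ← map_add, hv, map_zero]

theorem cm_ap {g h : G} (e : Commute g h) (v : V56) : ρ g (ρ h v) = ρ h (ρ g v) := by
  rw [← mul_ap, e.eq, mul_ap]

theorem inj_ap (g : G) : Function.Injective (ρ g) := fun v w e => by
  simpa [← mul_ap] using congrArg (ρ g⁻¹) e

theorem inv_fix {g : G} {v : V56} (h : ρ g v = v) : ρ g⁻¹ v = v :=
  inj_ap g (by rw [← mul_ap, mul_inv_cancel, map_one, h]; rfl)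

theorem f2_mul {c c' : G} (h : kf (ρ c) ≤ kf (ρ c')) (g : G) : f2 ρ c (g * c') = f2 ρ c g :=
  congrArg dm (Submodule.ext fun v => and_congr_right fun hv => by
    change v ∈ kf _ ↔ v ∈ kf _
    rw [mem_kf, mem_kf, mul_ap, mem_kf.1 (h hv)])

theorem eighteen (hC : JobCong) (hX : JobSplit) {M : Submodule (ZMod 2) V56} {z x y h : G}
    (mz : ∀ v ∈ M, ρ z v ∈ M) (mx : ∀ v ∈ M, ρ x v ∈ M) (my : ∀ v ∈ M, ρ y v ∈ M)
    (mh : ∀ v ∈ M, ρ h v ∈ M) (z3 : z ^ 3 = 1) (x3 : ∀ v ∈ M, ρ (x ^ 3) v = v) (zx : Commute z x)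
    (zy : ∀ v ∈ M, ρ z (ρ y v) = ρ y (ρ z v)) (e : ∀ v ∈ M, ρ y (ρ x v) = ρ x (ρ z (ρ y v)))
    (hx : Commute x h) (hz : h ^ 3 = z) : ∃ n, dm (M ⊓ kf (ρ z)) + 18 * n = dm M := by
  have zh : Commute z h := hz ▸ (Commute.refl h).pow_left 3
  have c : ∀ g, Commute z g → (∀ v ∈ M, ρ g v ∈ M) → ∀ v ∈ M ⊓ kc (ρ z), ρ g v ∈ M ⊓ kc (ρ z) :=
    fun g a b v hv => ⟨b v hv.1, inv_mem_kc (fun w _ => cm_ap a w) hv.2⟩
  have h1 := hX.2.1 M (ρ z) mz fun v _ => by rw [pw z3]; rfl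
  have h2 := hX.2.2 (M ⊓ kc (ρ z)) (ρ z) (ρ x) (ρ y) (c z (.refl z) mz) (c x zx mx)
    (fun v hv => ⟨my v hv.1, inv_mem_kc (by
      rintro w (rfl | rfl)
      exacts [zy _ hv.1, zy _ (mz v hv.1)]) hv.2⟩) inf_le_right
    (fun v hv => by rw [← map_pow, x3 v hv.1]) (fun v _ => cm_ap zx v) (inj_ap y)
    (fun v hv => (zy v hv.1).symm) fun v hv => e v hv.1
  obtain ⟨n, hn⟩ := (hC (M ⊓ kc (ρ z) ⊓ kf (ρ x)) (ρ h)
    fun v hv => ⟨c h zh mh v hv.1, inv_mem_kf hx v hv.2⟩).2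
    (fun v _ => by rw [pw (show h ^ 9 = 1 by rw [← z3, ← hz, ← pow_mul])]; rfl)
    (eq_bot_iff.2 fun v hv => (hX.1 (ρ z)).le ⟨by rw [← hz, map_pow]; exact hv.2, hv.1.1.2⟩)
  exact ⟨n, by omega⟩

theorem jobMG8 (hC : JobCong) (hX : JobSplit) : JobMG8.{u} := by
  rintro G _ ρ hg h9 ⟨a, b, s, k, ab, a9, s3, sa, sb, oh, kz, ka⟩
  have b9 : b ^ 9 = 1 := by rw [← sa, conj_pow, a9]; simp
  have ah : Commute a (a * b⁻¹) := (Commute.refl a).mul_right ab.inv_right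
  have bh : Commute b (a * b⁻¹) := ab.symm.mul_right (Commute.refl b).inv_right
  have e1 : s * (a * b⁻¹) * s⁻¹ = a * b⁻¹ * b ^ 3 := by
    rw [← conj_mul, ← conj_inv, sa, sb, inv_inv, ← mul_assoc, ← ab.eq, pow_three, ← mul_assoc,
      inv_mul_cancel_right, mul_assoc]
  have e2 : a ^ 3 = b ^ 3 * (a * b⁻¹) ^ 3 := by
    rw [ab.inv_right.mul_pow, ← mul_assoc, ← (ab.pow_pow 3 3).eq]; group
  have e3 : s * a ^ 3 * s⁻¹ = b ^ 3 := by rw [← conj_pow, sa]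
  have e4 : a * b⁻¹ = a * (s * (a⁻¹ * s⁻¹)) := by rw [← sa]; group
  generalize a * b⁻¹ = h at *
  have A3 : (a ^ 3) ^ 3 = 1 := by rw [← pow_mul, a9]
  have z3 : (h ^ 3) ^ 3 = 1 := by rw [← pow_mul, po oh]
  have sz : Commute (h ^ 3) s := by
    rw [commute_iff_eq, eq_comm, ← mul_inv_eq_iff_eq_mul, ← conj_pow, e1,
      (bh.symm.pow_right 3).mul_pow, ← pow_mul, b9, mul_one]
  have hz : Commute (h ^ 3) h := (Commute.refl h).pow_left 3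
  have az : Commute (h ^ 3) a := ah.symm.pow_left 3
  have Az := az.pow_right 3
  have e5 : a ^ 3 * s = s * a ^ 3 * h ^ 3 := by
    rw [mul_inv_eq_iff_eq_mul.1 e3, mul_assoc, ← sz.eq, ← mul_assoc, ← e2]
  have oz : orderOf (h ^ 3) = 3 := by rw [orderOf_pow' _ (by norm_num), oh]; rfl
  have t : ∀ g : G, ∀ v ∈ (⊤ : Submodule (ZMod 2) V56), ρ g v ∈ (⊤ : Submodule (ZMod 2) V56) :=
    fun _ _ _ => trivial
  obtain ⟨m, hm⟩ := eighteen hC hX (y := s⁻¹) (t _) (t _) (t _) (t h) z3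
    (fun v _ => by rw [A3, map_one]; rfl) Az (fun v _ => cm_ap sz.inv_right v)
    (fun v _ => by
      rw [← mul_ap, ← mul_ap, ← mul_ap, show s⁻¹ * a ^ 3 = a ^ 3 * h ^ 3 * s⁻¹ by
        rw [eq_mul_inv_iff_mul_eq, mul_assoc, e5]; group]) (ah.pow_left 3) rfl
  have zs : ∀ v ∈ kf (ρ (h ^ 3)), ρ (a ^ 3) (ρ s v) = ρ s (ρ (a ^ 3) v) := fun v hv => by
    rw [← mul_ap, e5, mul_ap, mem_kf.1 hv, mul_ap]
  obtain ⟨n, hn⟩ := eighteen hC hX (y := s) (inv_mem_kf Az) (inv_mem_kf hz) (inv_mem_kf sz)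
    (inv_mem_kf az) A3 (fun v hv => mem_kf.1 hv) (ah.pow_left 3) zs
    (fun v hv => by
      rw [← mul_ap, mul_inv_eq_iff_eq_mul.1 e1, mul_ap, mul_ap, e2, mul_ap,
        mem_kf.1 (inv_mem_kf sz v hv)]) ah.symm rfl
  obtain ⟨x, hx⟩ := part_kf (ρ := ρ) H58.E7.jobPart Nat.prime_three (by norm_num) Az sz (.inr e5)
    A3 s3
  have f0 : f2 ρ (h ^ 3) s = f2 ρ (h ^ 3) (a ^ 3) := by rw [← ka, f2_conj' kz]
  have e6 : a ^ 3 * s = h⁻¹ * s * h⁻¹⁻¹ * h ^ 3 := by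
    rw [e2, inv_inv, mul_assoc, sz.eq, ← mul_assoc, mul_assoc h⁻¹, mul_inv_eq_iff_eq_mul.1 e1]
    group
  have f1 : ∀ i : ℕ, f2 ρ (h ^ 3) ((a ^ 3) ^ i * s) = f2 ρ (h ^ 3) (a ^ 3) := fun i => by
    induction i with
    | zero => simpa using f0
    | succ i ih =>
      rw [show (a ^ 3) ^ (i + 1) * s = h⁻¹ * ((a ^ 3) ^ i * s) * h⁻¹⁻¹ * h ^ 3 by
        rw [pow_succ (a ^ 3), mul_assoc, e6, ← mul_assoc h⁻¹,
          ← ((ah.pow_left 3).pow_left i).inv_right.eq]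
        simp only [mul_assoc], f2_mul le_rfl, f2_conj' hz.symm.inv_left, ih]
  rw [top_inf_eq, dm_top] at hm
  simp only [f1, Finset.sum_const, Finset.card_range, smul_eq_mul] at hx
  have d := hg.three _ oz
  have h1 : kf (ρ (h ^ 3)) ⊓ kf (ρ s) = kf (ρ (h ^ 3)) :=
    Submodule.eq_of_le_of_finrank_le inf_le_left (by
      change fd ρ _ ≤ f2 ρ _ _
      change fd ρ _ + _ = _ at hm
      change f2 ρ _ _ + _ = fd ρ _ at hn
      omega)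
  refine h9 h oh fun v hv => mem_kf.2 ?_
  conv_lhs => rw [e4, mul_ap, mul_ap, mul_ap, inv_fix (mem_kf.1 (h1.ge hv).2),
    mem_kf.1 (h1.ge (inv_mem_kf az.inv_right v hv)).2, ← mul_ap, mul_inv_cancel, map_one]
  rfl

end H44.E7T
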