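/- Tower E7T, slot M27: `L₂(27)` on the 56-dimensional module. -/
import Cfsg.Agent.H44.E7MG8

set_option autoImplicit false

namespace H44.E7T

open Module H40.E7S H40.E7T H61.E7M

universe u

variable {G : Type*} [Group G] {ρ : Representation (ZMod 2) G V56} {a : Fin 4 → G} {t s : G}

theorem two (v : V56) : v + v = 0 := funext fun _ => CharTwo.add_self_eq_zero _

theorem odd_smul (k : ℕ) (v : V56) : (2 * k + 1) • v = v := by
  rw [add_smul, mul_smul, two_nsmul, two, zero_add, one_smul]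

theorem dm_le (f : End (ZMod 2) V56) {A B : Submodule (ZMod 2) V56} (h1 : ∀ v ∈ A, f v ∈ B)
    (h2 : ∀ v ∈ A, f v = 0 → v = 0) : dm A ≤ dm B :=
  LinearMap.finrank_le_finrank_of_injective (f := f.restrict h1)
    ((injective_iff_map_eq_zero _).2 fun v hv => Subtype.ext (h2 v v.2 (congrArg Subtype.val hv)))

theorem gen_ind {S : Set G} (h : Subgroup.closure S = ⊤) {W : Type*} (f : V56 → W)
    (D : Set V56) (hD : ∀ g, ∀ v ∈ D, (∀ w ∈ D, f (ρ g w) = f w) → f (ρ g⁻¹ v) = f v)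
    (hM : ∀ g k, ∀ v ∈ D, (∀ w ∈ D, f (ρ g w) = f w) → (∀ w ∈ D, f (ρ k w) = f w) →
      f (ρ g (ρ k v)) = f v)
    (hS : ∀ g ∈ S, ∀ v ∈ D, f (ρ g v) = f v) (g : G) : ∀ v ∈ D, f (ρ g v) = f v := by
  have hg : g ∈ Subgroup.closure S := h ▸ Subgroup.mem_top g
  induction hg using Subgroup.closure_induction with
  | mem g hg => exact hS g hg
  | one => simp
  | mul g k _ _ a b => exact fun v hv => by rw [mul_ap, hM g k v hv a b]
  | inv g _ a => exact fun v hv => hD g v hv a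

/-- The powers of a root of `X³ - X - 1`. -/
def tb : ZMod 13 → E4 :=
  ![![1, 0, 0, 0], ![0, 1, 0, 0], ![0, 0, 1, 0], ![1, 1, 0, 0], ![0, 1, 1, 0], ![1, 1, 1, 0],
    ![1, 2, 1, 0], ![1, 2, 2, 0], ![2, 0, 2, 0], ![2, 1, 0, 0], ![0, 2, 1, 0], ![1, 1, 2, 0],
    ![2, 0, 1, 0]]

/-- The matrix of `t`. -/
def mt : Fin 4 → E4 := ![![0, 1, 0, 0], ![0, 0, 1, 0], ![1, 1, 0, 0], ![0, 0, 0, 1]]

/-- A parametrisation of the exponent vectors. -/
def pm (x : ZMod 3 × Option (ZMod 13 × Bool)) : E4 :=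
  x.2.elim 0 (fun y => if y.2 then tb y.1 else -tb y.1) + x.1 • Pi.single 3 1

theorem ev_neg (h : El a) (v : E4) : ev a (-v) = (ev a v)⁻¹ :=
  eq_inv_of_mul_eq_one_left (by rw [← h.ev_add, neg_add_cancel, ev_zero])

section
variable (h : C27 a t s)
include h

theorem sumE {A : Type*} [AddCommMonoid A] (f : G → A) : ∑ y : E4, f (ev a y) =
    3 • (f 1 + ∑ i : ZMod 13, (f (ev a (tb i)) + f (ev a (tb i))⁻¹)) := by
  rw [← Function.Bijective.sum_comp (e := pm) (by decide +kernel), Fintype.sum_prod_type]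
  simp only [pm, h.el.ev_add, h.el.ev_smul, ev_single, h.a3, one_pow, mul_one, Finset.sum_const,
    Fintype.sum_option, Fintype.sum_prod_type, Fintype.sum_bool, Option.elim, ev_zero,
    ev_neg h.el, if_true, Bool.false_eq_true, if_false, Finset.card_univ, ZMod.card]

theorem cj_t (v : E4) : t * ev a v * t⁻¹ = ev a (act mt v) := by
  refine h.el.ev_conj (fun i => ?_) v
  fin_cases i <;> simp [mt, ev, ZMod.val_one, h.t0, h.t1, h.t2, h.a3]

theorem cj_pow (n : ℕ) (i : ZMod 13) : t ^ n * ev a (tb i) * (t ^ n)⁻¹ = ev a (tb (i + n)) := by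
  induction n with
  | zero => simp
  | succ n ih =>
    rw [Nat.cast_succ, ← add_assoc, ← (by decide +kernel : ∀ j, act mt (tb j) = tb (j + 1)),
      ← cj_t h, ← ih]
    group

theorem cj0 (i : ZMod 13) : ev a (tb i) = t ^ i.val * a 0 * (t ^ i.val)⁻¹ ∧
    ev a (tb (-i)) = (t ^ i.val)⁻¹ * a 0 * t ^ i.val := by
  have e : ev a (tb 0) = a 0 := by rw [← ev_single a 0]; exact congrArg _ (by decide)
  have h1 := cj_pow h i.val 0
  have h2 := cj_pow h i.val (-i)
  rw [ZMod.natCast_zmod_val, zero_add, e] at h1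
  rw [ZMod.natCast_zmod_val, neg_add_cancel, e] at h2
  exact ⟨h1.symm, by rw [← h2]; group⟩

theorem sw {x : G} (hx : (s * x) ^ 3 = 1) (n : ℕ) {u : V56} (h1 : ρ t u = u) (h2 : ρ x u = u) :
    ρ s (ρ (t ^ n * x * (t ^ n)⁻¹) (ρ s u)) = ρ ((t ^ n)⁻¹ * x⁻¹ * t ^ n) (ρ s u) := by
  have ss : s⁻¹ = s := inv_eq_of_mul_eq_one_right (by rw [← pow_two, h.os])
  have e1 : s * t ^ n = (t ^ n)⁻¹ * s := by
    rw [← mul_inv_eq_iff_eq_mul, ← conj_pow, h.st, inv_pow]
  have e2 : t ^ n * s = s * (t ^ n)⁻¹ := by rw [eq_mul_inv_iff_mul_eq, mul_assoc, e1]; simp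
  have e3 : s * x * s = x⁻¹ * s * x⁻¹ := by
    nth_rewrite 3 [← ss]
    rw [← one_mul (x⁻¹ * s⁻¹ * x⁻¹), ← hx, pow_three]
    group
  have h3 := mem_kf.1 (kf_le_pow t n (mem_kf.2 h1))
  have e4 : s * (t ^ n * x * (t ^ n)⁻¹) * s =
      (t ^ n)⁻¹ * x⁻¹ * t ^ n * s * (t ^ n * (x⁻¹ * t ^ n)) := by
    calc _ = s * t ^ n * x * ((t ^ n)⁻¹ * s) := by group
      _ = (t ^ n)⁻¹ * s * x * (s * t ^ n) := by rw [← e1]
      _ = (t ^ n)⁻¹ * (s * x * s) * t ^ n := by group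
      _ = _ := by rw [e3, mul_assoc _ (t ^ n) s, e2]; group
  rw [← mul_ap, ← mul_ap, e4, mul_ap, mul_ap, mul_ap (t ^ n), mul_ap x⁻¹, h3, inv_fix h2, h3]

end

theorem jobM27 (hS : JobSum.{u}) (hC : JobCong) : JobM27.{u} := by
  rintro G _ ρ hg ⟨a, t, s, h⟩
  by_contra hn
  simp only [HasFix, not_or, not_exists, not_and] at hn
  have d0 : ∀ i, fd ρ (ev a (tb i)) = fd ρ (a 0) := fun i =>
    (fd_conj ρ (isConj_iff.2 ⟨_, (cj0 h i).1.symm⟩)).symm
  have d1 : ∀ g : G, fd ρ g⁻¹ = fd ρ g := fun g => congrArg dm (Submodule.ext fun v => by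
    rw [mem_kf, mem_kf]; exact ⟨fun e => by simpa using inv_fix e, inv_fix⟩)
  have d2 := (hS G ρ a h.el).1
  rw [sumE h, show fd ρ 1 = 56 by
    rw [← dm_top, fd, show kf (ρ 1) = ⊤ from eq_top_iff.2 fun v _ => by simp [mem_kf]]] at d2
  simp only [d0, d1, Finset.sum_const, Finset.card_univ, ZMod.card, smul_eq_mul] at d2
  have d3 := hg.three _ h.o0
  have d4 : fd ρ (a 0) = 20 := by omega
  have d5 : dm (fix4 ρ a) = 4 := by omega
  have mU : ∀ u, u ∈ fix4 ρ a ↔ ∀ y, ρ (ev a y) u = u := fun u =>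
    ⟨fun hu y => by
      simp only [ev, mul_ap, mem_kf.1 (kf_le_pow _ _ hu.2), mem_kf.1 (kf_le_pow _ _ hu.1.2),
        mem_kf.1 (kf_le_pow _ _ hu.1.1.2), mem_kf.1 (kf_le_pow _ _ hu.1.1.1)],
    fun hu => by
      have : ∀ i, u ∈ kf (ρ (a i)) := fun i => mem_kf.2 (by rw [← ev_single a i]; exact hu _)
      exact ⟨⟨⟨this 0, this 1⟩, this 2⟩, this 3⟩⟩
  obtain ⟨P, hP⟩ : ∃ P : End (ZMod 2) V56, ∀ x, P x = ∑ y, ρ (ev a y) x :=
    ⟨∑ y, ρ (ev a y), fun x => by rw [LinearMap.sum_apply]⟩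
  have p1 : ∀ x, P x ∈ fix4 ρ a := fun x => (mU _).2 fun y => by
    simp only [hP, map_sum, ← mul_ap, ← h.el.ev_add]
    exact Equiv.sum_comp (Equiv.addLeft y) fun z => ρ (ev a z) x
  have p2 : ∀ u ∈ fix4 ρ a, P u = u := fun u hu => by
    simp only [hP, (mU u).1 hu, Finset.sum_const]
    exact odd_smul 40 u
  have p3 : ∀ x, P (ρ (a 0) x) = P x := fun x => by
    rw [← ev_single a 0]
    simp only [hP, ← mul_ap, ← h.el.ev_add]
    exact Equiv.sum_comp (Equiv.addRight _) fun z => ρ (ev a z) x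
  have p4 : ∀ x, ρ t (P x) = P (ρ t x) := fun x => by
    simp only [hP, map_sum, ← mul_ap, mul_inv_eq_iff_eq_mul.1 (cj_t h _)]
    exact Function.Bijective.sum_comp (e := act mt) (by decide +kernel) fun z => ρ (ev a z * t) x
  -- (1)
  have u1 : fix4 ρ a ≤ kf (ρ t) := by
    have c := (hC (fix4 ρ a) (ρ t) fun u hu => by rw [← p2 u hu, p4]; exact p1 _).1 13 (by norm_num)
      fun v _ => by rw [pw h.ot]; rfl
    have l : dm (fix4 ρ a ⊓ kf (ρ t)) ≤ dm (fix4 ρ a) := Submodule.finrank_mono inf_le_left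
    refine inf_eq_left.1 (Submodule.eq_of_le_of_finrank_le inf_le_left ?_)
    change dm _ ≤ dm _
    rw [d5] at c l ⊢
    generalize dm (fix4 ρ a ⊓ kf (ρ t)) = n at c l ⊢
    interval_cases n <;> simp [Nat.ModEq] at c ⊢
  have p5 : ∀ x, P (ρ t x) = P x := fun x => by rw [← p4, mem_kf.1 (u1 (p1 x))]
  have fx0 : ∀ v, ρ (a 0) v = v → ρ t v = v → ρ s v = v → v = 0 := fun v h1 h2 h3 =>
    by_contra fun v0 => hn.1 v v0 fun g => gen_ind h.gen id {v}
      (by rintro g _ rfl e; exact inv_fix (e _ rfl))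
      (by rintro g k _ rfl e e'; exact (congrArg (ρ g) (e' _ rfl)).trans (e _ rfl))
      (by rintro _ (rfl | rfl | rfl) _ rfl <;> assumption) g v rfl
  have ss : ∀ v, ρ s (ρ s v) = v := fun v => by rw [← mul_ap, ← pow_two, h.os, map_one]; rfl
  have ts : ∀ v, ρ t v = v → ρ t (ρ s v) = ρ s v := fun v hv => by
    rw [← mul_ap, show t * s = s * t⁻¹ by
      rw [← h.st, ← mul_assoc, ← mul_assoc, ← pow_two, h.os, one_mul,
        inv_eq_of_mul_eq_one_right (show s * s = 1 by rw [← pow_two, h.os])], mul_ap, inv_fix hv]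
  -- (2)
  have u2 : ∀ u ∈ fix4 ρ a, P (ρ s u) = u := fun u hu => by
    have tu := mem_kf.1 (u1 hu)
    have au := mem_kf.1 hu.1.1.1
    have sa' : (s * (a 0)⁻¹) ^ 3 = 1 := by
      rw [← inv_eq_one, ← inv_pow, mul_inv_rev, inv_inv,
        inv_eq_of_mul_eq_one_right (show s * s = 1 by rw [← pow_two, h.os]),
        show a 0 * s = a 0 * (s * a 0) * (a 0)⁻¹ by group, conj_pow, h.sa]
      simp
    have e : ∀ x, P x = x + ∑ i : ZMod 13, (ρ (ev a (tb i)) x + ρ (ev a (tb i))⁻¹ x) := fun x => by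
      rw [hP, sumE h fun g => ρ g x, map_one]; exact odd_smul 1 _
    have e1 : ρ s (P (ρ s u)) = u + ∑ i : ZMod 13,
        (ρ (ev a (tb i)) (ρ s u) + ρ (ev a (tb i))⁻¹ (ρ s u)) := by
      rw [e, map_add, ss, map_sum, ← Equiv.sum_comp (Equiv.neg (ZMod 13))]
      refine congrArg _ (Finset.sum_congr rfl fun i _ => ?_)
      rw [Equiv.neg_apply, ← neg_neg i, (cj0 h (-i)).2, neg_neg, (cj0 h (-i)).1, map_add, conj_inv,
        sw h h.sa _ tu au, sw h sa' _ tu (inv_fix au), add_comm, inv_inv]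
      congr 3; group
    have := fx0 (u + P (ρ s u)) (by rw [map_add, au, mem_kf.1 (p1 _).1.1.1])
      (by rw [map_add, tu, mem_kf.1 (u1 (p1 _))]) (by rw [map_add, e1, e]; abel)
    rw [← add_zero (P _), ← two u, ← add_assoc, add_comm (P _), this, zero_add]
  obtain ⟨T, hT⟩ : ∃ T : End (ZMod 2) V56, ∀ x, T x = ∑ i ∈ Finset.range 13, ρ (t ^ i) x :=
    ⟨∑ i ∈ Finset.range 13, ρ (t ^ i), fun x => LinearMap.sum_apply _ _ _⟩
  have t1 : ∀ x, T (ρ t x) = T x := fun x => by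
    simp only [hT, ← mul_ap, ← pow_succ]
    rw [Finset.sum_range_succ, Finset.sum_range_succ' _ 12, h.ot, pow_zero]
  have t2 : ∀ x, ρ t (T x) = T x := fun x => by
    refine Eq.trans ?_ (t1 x)
    simp only [hT, map_sum, ← mul_ap, ← pow_succ, ← pow_succ']
  have t3 : ∀ Δ : End (ZMod 2) V56, (∀ x, Δ (ρ t x) = Δ x) → ∀ (n : ℕ) x, Δ (ρ (t ^ n) x) = Δ x :=
    fun Δ e n => by
      induction n with
      | zero => simp
      | succ n ih => exact fun x => by rw [pow_succ, mul_ap, ih, e]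
  have t4 : ∀ Δ : End (ZMod 2) V56, (∀ x, Δ (ρ t x) = Δ x) → ∀ x, Δ (T x) = Δ x := fun Δ e x => by
    simp only [hT, map_sum, t3 Δ e, Finset.sum_const, Finset.card_range]
    exact odd_smul 6 _
  -- (3)
  have c01 := h.el.comm 0 1
  have u3 : fd ρ t ≤ 8 := by
    have f := part_top (ρ := ρ) H58.E7.jobPart Nat.prime_three (by norm_num) c01 (h.el.cube 0)
      (h.el.cube 1)
    have g1 := d0 1
    have g3 := d0 3
    have g9 := d0 9
    rw [show tb 3 = Pi.single 0 1 + Pi.single 1 1 by decide, h.el.ev_add, ev_single, ev_single] at g3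
    rw [show tb 9 = Pi.single 0 1 + Pi.single 0 1 + Pi.single 1 1 by decide, h.el.ev_add,
      h.el.ev_add, ev_single, ev_single, ← pow_two] at g9
    rw [show tb 1 = Pi.single 1 1 by decide, ev_single] at g1
    simp only [Finset.sum_range_succ, Finset.sum_range_zero, pow_zero, pow_one, one_mul, g1, g3, g9,
      d4] at f
    let L : List E4 := [0, tb 0, tb 0 + tb 0, tb 1, tb 1 + tb 1, tb 3, tb 3 + tb 3, tb 9, tb 9 + tb 9]
    obtain ⟨π, hπ⟩ : ∃ π : End (ZMod 2) V56, ∀ x, π x = (L.map fun y => ρ (ev a y) x).sum :=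
      ⟨(L.map fun y => ρ (ev a y)).sum, fun x => by simp [L]⟩
    have i1 : ∀ i, (L.map (Pi.single i 1 + ·)).Perm L → ∀ x, π x ∈ kf (ρ (a i)) := fun i e x => by
      rw [mem_kf, hπ, map_list_sum, ← ev_single a i]
      conv_rhs => rw [← (e.map _).sum_eq]
      simp only [List.map_map, Function.comp_def, h.el.ev_add, mul_ap]
    refine (dm_le π (B := kf (ρ (a 0)) ⊓ kf (ρ (a 1)))
      (fun v _ => ⟨i1 0 (by decide) v, i1 1 (by decide) v⟩) fun v hv e => ?_).trans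
      (show f2 ρ _ _ ≤ 8 by omega)
    have i2 : ∀ (n : ℕ) x, T (ρ (t ^ n * x * (t ^ n)⁻¹) v) = T (ρ x v) := fun n x => by
      rw [mul_ap, mul_ap, t3 T t1, inv_fix (mem_kf.1 (kf_le_pow t n hv))]
    have i3 : T v = v := by
      simp only [hT, mem_kf.1 (kf_le_pow t _ hv), Finset.sum_const, Finset.card_range]
      exact odd_smul 6 v
    have i4 := congrArg T e
    simp only [hπ, L, List.map_cons, List.map_nil, List.sum_cons, List.sum_nil, map_add, map_zero,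
      h.el.ev_add, (cj0 h _).1, conj_mul, i2, ev_zero, map_one, End.one_apply, i3] at i4
    refine Eq.trans ?_ i4
    conv_lhs => rw [← add_zero v, ← two (T (ρ (a 0) v) + T (ρ (a 0) v) + T (ρ (a 0 * a 0) v) +
      T (ρ (a 0 * a 0) v))]
    abel
  -- (4)
  have u4 : ∀ d, ρ t d = d → P d = 0 → ρ s d = d := fun d h1 h2 => by
    let D := kf (ρ t) ⊓ LinearMap.ker P
    have a1 : (fix4 ρ a).map (ρ s + 1) ≤ D := by
      rintro _ ⟨u, hu, rfl⟩
      have tu := mem_kf.1 (u1 hu)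
      change ρ s u + u ∈ _
      exact ⟨mem_kf.2 (by rw [map_add, tu, ts u tu]),
        LinearMap.mem_ker.2 (by rw [map_add, u2 u hu, p2 u hu, two])⟩
    have a2 := dm_le (ρ s + 1) (A := fix4 ρ a) (fun v hv => Submodule.mem_map_of_mem hv)
      fun v hv e => fx0 v (mem_kf.1 hv.1.1.1) (mem_kf.1 (u1 hv)) (by
        rw [← add_zero (ρ s v), ← two v, ← add_assoc, show ρ s v + v = 0 from e, zero_add])
    have a3 := Submodule.finrank_sup_add_finrank_inf_eq (fix4 ρ a) D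
    rw [show fix4 ρ a ⊓ D = ⊥ from eq_bot_iff.2 fun v hv => (p2 v hv.1).symm.trans hv.2.2,
      finrank_bot] at a3
    have a4 : dm (fix4 ρ a ⊔ D) ≤ fd ρ t := Submodule.finrank_mono (sup_le u1 inf_le_left)
    obtain ⟨u, -, rfl⟩ := (Submodule.eq_of_le_of_finrank_le a1 (by
      change dm _ ≤ dm _
      change dm _ + _ = dm _ + dm _ at a3
      omega)).ge (show d ∈ D from ⟨mem_kf.2 h1, h2⟩)
    change ρ s (ρ s u + u) = ρ s u + u
    rw [map_add, ss, add_comm]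
  -- (5)
  have u5 : ∀ x, P (ρ s x) = P x := fun x => by
    have b1 := t4 (P * ρ s) (fun y => by
      change P (ρ s (ρ t y)) = P (ρ s y)
      rw [← mul_ap, mul_inv_eq_iff_eq_mul.1 h.st, mul_ap, ← p5, ← mul_ap, mul_inv_cancel, map_one]
      rfl) x
    have b2 := u4 (T x - P (T x)) (by rw [map_sub, t2, mem_kf.1 (u1 (p1 _))])
      (by rw [map_sub, p2 _ (p1 _), sub_self])
    have b3 := congrArg P b2
    rw [map_sub, map_sub, map_sub, u2 _ (p1 _), p2 _ (p1 _), sub_left_inj, t4 P p5] at b3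
    exact b1.symm.trans b3
  obtain ⟨u, hu, u0⟩ := Submodule.exists_mem_ne_zero_of_ne_bot (p := fix4 ρ a) fun e => by
    rw [e, dm, finrank_bot] at d5; omega
  obtain ⟨φ, hφ⟩ := Module.Projective.exists_dual_ne_zero (ZMod 2) u0
  refine hn.2 (φ ∘ₗ P) (fun e => hφ (by rw [← p2 u hu]; exact congrArg (· u) e)) fun g v =>
    congrArg φ (gen_ind h.gen P Set.univ (fun g v _ e => by
      rw [← e _ trivial, ← mul_ap, mul_inv_cancel, map_one]; rfl)
      (fun g k v _ e e' => (e _ trivial).trans (e' _ trivial))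
      (by rintro _ (rfl | rfl | rfl) v -; exacts [p3 v, p5 v, u5 v]) g v trivial)

end H44.E7T
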