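import Cfsg.Agent.H11.FBSpec

/-! Tower FB, job J4: the branch with four fixed points. -/

set_option autoImplicit false

namespace H44.FBJ4

open MulAction Subgroup H11.FB

universe u v

theorem jobJ4 : JobJ4.{u, v} := by
  intro BU SV FI G Ω _ _ _ _ _ _ a b c d K H P h cx hh ho hθ hN
  exfalso
  have hH1 : Nat.card H ≠ 1 := fun e => cx.hy.fr.Hne (card_eq_one.1 e)
  have hp : (orderOf h).Prime := ho ▸ Nat.minFac_prime hH1
  have := Fact.mk hp
  have hp2 : orderOf h ≠ 2 := fun e => Nat.not_even_iff_odd.2 cx.odd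
    (even_iff_two_dvd.2 (e ▸ orderOf_dvd_natCard H hh))
  have th := cx.th1 h hh hp
  have hHX : H ≤ X3 G a b c := cx.hy.fr.Hle.trans inf_le_left
  have hE : H = normalizer (zpowers h : Set G) ⊓ X3 G a b c :=
    eq_of_le_of_card_ge (le_inf (fun x hx => (th.nl x (cx.hy.fr.Hle hx)).2 hx) hHX)
      (by rw [th.cardX, hθ]; simp)
  have hz : IsPGroup (orderOf h) (zpowers (⟨h, hh⟩ : H)) :=
    IsPGroup.of_card (n := 1) (by rw [Nat.card_zpowers, pow_one]; exact (orderOf_coe _).symm)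
  obtain ⟨Q, hQ⟩ := hz.exists_le_sylow
  have hR : (Q : Subgroup H).map H.subtype ≤ H := map_subtype_le _
  have hRp : IsPGroup (orderOf h) ((Q : Subgroup H).map H.subtype) := Q.isPGroup'.map _
  obtain ⟨X₁, hX₁⟩ := BU (X := X3 G a b c) (R := (Q : Subgroup H).map H.subtype) hp hp2 rfl
    ⟨⟨h, hh⟩, hQ (mem_zpowers _), rfl⟩ (hR.trans hHX) hRp (cx.fh.cyc _ hp _ hR hRp)
    (fun g hg hn => cx.fh.cen h hh ho g (hE ▸ ⟨hn, hg⟩))
    ⟨(Q : Subgroup H).index, Q.not_dvd_index, by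
      rw [← hE, card_map_of_injective H.subtype_injective, index_mul_card]⟩
  have hle : X₁ ⊓ centralizer {h} ≤ H := fun x hx => by
    rw [hE]
    refine ⟨mem_normalizer_fintype fun y hy => ?_, hX₁.le hx.1⟩
    obtain ⟨k, rfl⟩ := mem_zpowers_iff.1 hy
    have h1 : Commute x h := mem_centralizer_singleton_iff.1 hx.2
    rw [(h1.zpow_right k).eq, mul_inv_cancel_right]
    exact hy
  have hs := SV hp hX₁ (hHX hh) rfl (.inl (cx.odd.of_dvd_nat (card_dvd_of_le hle)))
  obtain ⟨O, h1, h2, h3, h4⟩ := FI hs fun p hp h3 => hN p hp (.inl h3)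
  have h5 : O = ⊥ := hN 3 Nat.prime_three (.inr (by decide)) O h1
    (fun m hm => h3 m fun x hx => mul_mem (mul_mem hm hx) (inv_mem hm)) h2
  have h6 : h ∈ O := h4 h (hHX hh) fun y hy => by
    rw [h5, mem_bot] at hy
    rw [hy, mul_one, one_mul]
  rw [h5, mem_bot] at h6
  exact hp.one_lt.ne' (orderOf_eq_one_iff.2 h6)

end H44.FBJ4
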