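import Cfsg.Agent.H51.KSSpec

/-! KS-D2B, KS-D2C: the special lines form a spread; spreads contradict `P2`. -/

set_option autoImplicit false
set_option linter.unusedSectionVars false

namespace H44.KS

open Module Submodule H53.CK H51.KL H54 H26.MS H51.KS

universe u v

theorem ncard_pair {α β : Type*} [Finite α] [Finite β] (s : Set α) (r : α → β → Prop) {m : ℕ}
    (h : ∀ a ∈ s, {b | r a b}.ncard = m) : {d : α × β | d.1 ∈ s ∧ r d.1 d.2}.ncard = s.ncard * m := by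
  rw [dcount s {d : α × β | d.1 ∈ s ∧ r d.1 d.2} (fun a d => d.1 = a) (n := 1) (fun a ha => by
    rw [← h a ha]
    exact Set.ncard_congr (fun d _ => d.2) (fun d hd => hd.2 ▸ hd.1.2)
      (fun d e hd he k => Prod.ext (hd.2.trans he.2.symm) k) fun b hb => ⟨(a, b), ⟨⟨ha, hb⟩, rfl⟩, rfl⟩)
    fun d hd => Set.ncard_eq_one.2 ⟨d.1, Set.eq_singleton_iff_unique_mem.2
      ⟨⟨hd.1, rfl⟩, fun a ha => ha.2.symm⟩⟩, mul_one]

variable {F : Type u} [Field F] [Finite F] {V : Type v} [AddCommGroup V] [Module F V]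
  [FiniteDimensional F V] {B : LinearMap.BilinForm F V} {K : Subgroup (V ≃ₗ[F] V)} {x y z : V}

theorem three_le (h : (2 : F) ≠ 0) : 3 ≤ Nat.card F := by
  have : ({0, 1, -1} : Set F).ncard = 3 := Set.ncard_eq_three.2 ⟨0, 1, -1, zero_ne_one,
    by simp, fun e => h (by linear_combination e), rfl⟩
  rw [← this, ← Set.ncard_univ]
  exact Set.ncard_le_ncard (Set.subset_univ _)

theorem rk_perp (S : Sy B) (W : Submodule F V) :
    finrank F (B.orthogonal W) + finrank F W = finrank F V := by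
  rw [LinearMap.BilinForm.finrank_orthogonal S.nd, Nat.sub_add_cancel (finrank_le W)]

theorem ncard_nz : {x : V | x ≠ 0}.ncard + 1 = Nat.card F ^ finrank F V := by
  simpa using ncard_ne_zero (⊤ : Submodule F V)

theorem jobD2c : JobD2c.{u, v} := by
  intro F _ _ V _ _ _ B S K hn hP U h
  have := finV F V
  have := finGL F V
  have q2 := two_le_card F
  have ti : ∀ x, x ≠ 0 → ∀ y ∈ U x, ∀ w ∈ U x, B y w = 0 := fun x hx y hy w hw => by
    by_cases h0 : y = 0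
    · simp [h0]
    · exact h.ti y h0 w (h.eq x y hx h0 hy ▸ hw)
  have n8 : 8 ≤ finrank F V := by
    obtain ⟨x, hx⟩ := exists_ne_zero' (F := F) (V := V) (by omega)
    have r1 := rk_perp S (U x)
    obtain ⟨z, z1, z2⟩ := H62.exists_mem_notMem (W := B.orthogonal (U x)) (Z := U x) (by
      rw [h.rk x hx] at r1 ⊢; omega)
    have z0 : z ≠ 0 := fun e => z2 (e ▸ zero_mem _)
    have e : U x ⊓ U z = ⊥ := eq_bot_iff.2 fun w hw => by
      by_contra h0
      exact z2 (h.eq x w hx h0 hw.1 ▸ (h.eq z w z0 h0 hw.2).symm ▸ h.self z)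
    have r2 := finrank_sup_add_finrank_inf_eq (U x) (U z)
    rw [e, finrank_bot, h.rk x hx, h.rk z z0] at r2
    have r3 := rk_perp S (U x ⊔ U z)
    have p := h.perp x z hx z0 z1
    have := finrank_mono (show U x ⊔ U z ≤ B.orthogonal (U x ⊔ U z) from fun a ha b hb => by
      obtain ⟨a1, h1, a2, h2, rfl⟩ := mem_sup.1 ha
      obtain ⟨b1, h3, b2, h4, rfl⟩ := mem_sup.1 hb
      change B _ _ = 0
      simp [ti x hx _ h3 _ h1, ti z z0 _ h4 _ h2, p _ h3 _ h2, S.alt.isRefl _ _ (p _ h1 _ h4)])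
    omega
  obtain ⟨m, hm⟩ : ∃ m, m + Nat.card F = Nat.card F ^ 2 := ⟨_, Nat.sub_add_cancel (by nlinarith)⟩
  have fb : ∀ x, x ≠ 0 → {y | y ∈ U x ∧ y ∉ F ∙ x}.ncard = m := fun x hx => by
    have := ncard_diff ((span_singleton_le_iff_mem _ _).2 (h.self x))
    rw [finrank_span_singleton hx, h.rk x hx, pow_one] at this
    omega
  obtain ⟨n, hn'⟩ : ∃ n, finrank F V = n + 8 := ⟨_, (Nat.sub_add_cancel n8).symm⟩
  obtain ⟨l, hl⟩ : ∃ l, l + Nat.card F = Nat.card F ^ (n + 7) := ⟨_, Nat.sub_add_cancel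
    (Nat.le_self_pow (by omega) _)⟩
  have fl : ∀ x, x ≠ 0 → {y | y ∉ (F ∙ x) ∧ B x y = 0}.ncard = l := fun x hx => by
    have r := rk_perp S (F ∙ x)
    have := ncard_diff (U := F ∙ x) (W := B.orthogonal (F ∙ x)) fun a ha b hb => by
      obtain ⟨c, rfl⟩ := mem_span_singleton.1 ha
      obtain ⟨d, rfl⟩ := mem_span_singleton.1 hb
      change B _ _ = 0
      simp [S.alt.self_eq_zero]
    rw [finrank_span_singleton hx] at r this
    rw [show finrank F (B.orthogonal (F ∙ x)) = n + 7 by omega, pow_one, ← hl, add_left_inj] at this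
    rw [← this]
    congr 1
    ext y
    refine and_comm.trans (and_congr_left' ⟨fun k b hb => ?_, fun k => k x (mem_span_singleton_self x)⟩)
    obtain ⟨d, rfl⟩ := mem_span_singleton.1 hb
    change B _ _ = 0
    simp [k]
  have key := avg (Isom B) (Λ := {d : V × V | d.1 ∈ {x | x ≠ 0} ∧ d.2 ∉ (F ∙ d.1) ∧ B d.1 d.2 = 0})
    (D := {d : V × V | d.1 ∈ {x | x ≠ 0} ∧ d.2 ∈ U d.1 ∧ d.2 ∉ F ∙ d.1})
    (c := (Nat.card F ^ 4 - 1) * m)
    (fun d hd => ⟨hd.1, hd.2.2, h.ti _ hd.1 _ hd.2.1⟩)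
    (fun g hg d hd => ⟨(Ind.map ⟨hd.1, hd.2.1⟩ g).1, (Ind.map ⟨hd.1, hd.2.1⟩ g).2,
      (hg _ _).trans hd.2.2⟩)
    (fun d hd e he => by
      have li : ∀ {a b : V}, a ≠ 0 → b ∉ (F ∙ a) → LinearIndependent F ![a, b] := fun {a b} h1 h2 =>
        (LinearIndependent.pair_iff' h1).2 fun c hc => h2 (mem_span_singleton.2 ⟨c, hc⟩)
      obtain ⟨g, hg⟩ := isom_witt S.nd S.alt ![d.1, d.2] ![e.1, e.2] (li hd.1 hd.2.1) (li he.1 he.2.1)
        fun i j => by
          fin_cases i <;> fin_cases j <;>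
            simp [S.alt.self_eq_zero, hd.2.2, he.2.2, S.alt.isRefl _ _ hd.2.2, S.alt.isRefl _ _ he.2.2]
      exact ⟨g, g.2, Prod.ext (hg 0) (hg 1)⟩)
    fun g hg => by
      obtain ⟨z, a, z', a', k, hk, rfl⟩ := hP g hg
      have ex : ∀ z, ∃ W : Submodule F V, finrank F W ≤ 2 ∧ ∀ x, x ≠ 0 → (∀ w ∈ W, B w x = 0) →
          ∀ y ∈ U x, B z y = 0 := fun z => by
        by_cases h0 : z = 0
        · exact ⟨⊥, by simp, fun _ _ _ _ _ => by simp [h0]⟩
        · exact ⟨U z, (h.rk z h0).le, fun x hx k y hy => h.perp z x h0 hx k z (h.self z) y hy⟩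
      obtain ⟨W, w1, w2⟩ := ex z
      obtain ⟨W', w1', w2'⟩ := ex z'
      have r1 := rk_perp S (W ⊔ W')
      have r2 := finrank_sup_add_finrank_inf_eq W W'
      have r3 := ncard_ne_zero (B.orthogonal (W ⊔ W'))
      have r4 := Nat.pow_le_pow_right (show 0 < Nat.card F by omega)
        (show 4 ≤ finrank F (B.orthogonal (W ⊔ W')) by omega)
      refine (Nat.mul_le_mul_right m (show _ ≤ {y | y ∈ B.orthogonal (W ⊔ W') ∧ y ≠ 0}.ncard by
        omega)).trans ?_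
      rw [← ncard_pair _ (fun x y => y ∈ U x ∧ y ∉ F ∙ x) fun x hx => fb x hx.2]
      refine Set.ncard_le_ncard_of_injOn (fun d => k⁻¹ • d) (fun d hd => ?_)
        fun _ _ _ _ e => MulAction.injective _ e
      have i := Ind.map ⟨hd.1.2, hd.2.2⟩ k⁻¹
      refine ⟨⟨i.1, h.map _ (K.inv_mem hk) _ hd.1.2 _ hd.2.1, i.2⟩, ?_⟩
      have f : ∀ y ∈ U d.1, ee S.alt z 0 a (ee S.alt z' 0 a' y) = y := fun y hy => by
        simp [tv_apply, w2 _ hd.1.2 (fun w hw => hd.1.1 w (mem_sup_left hw)) y hy,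
          w2' _ hd.1.2 (fun w hw => hd.1.1 w (mem_sup_right hw)) y hy]
      rw [mul_smul, smul_inv_smul, show (ee S.alt z 0 a * ee S.alt z' 0 a') • d = d from
        Prod.ext (f _ (h.self _)) (f _ hd.2.1)]
      exact ⟨hd.1.2, hd.2⟩
  rw [ncard_pair {x | x ≠ 0} (fun x y => y ∉ (F ∙ x) ∧ B x y = 0) fl,
    ncard_pair {x | x ≠ 0} (fun x y => y ∈ U x ∧ y ∉ F ∙ x) fb] at key
  have hA := ncard_nz (F := F) (V := V)
  generalize {x : V | x ≠ 0}.ncard = A at key hA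
  generalize Nat.card F = q at *
  have p1 : q ^ 5 ≤ q ^ (n + 7) := Nat.pow_le_pow_right (by omega) (by omega)
  rw [hn', show n + 8 = n + 7 + 1 from rfl, pow_succ] at hA
  generalize q ^ (n + 7) = N at *
  obtain ⟨c, hc⟩ : ∃ c, c + 1 = q ^ 4 := ⟨_, Nat.sub_add_cancel (Nat.one_le_pow _ _ (by omega))⟩
  rw [← hc, Nat.add_sub_cancel] at key
  have m0 : 0 < m := by nlinarith
  have A0 : 0 < A := by nlinarith [Nat.pow_pos (n := 5) (show 0 < q by omega)]
  have k1 : c * l ≤ A * m := Nat.le_of_mul_le_mul_left (by nlinarith) (Nat.mul_pos A0 m0)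
  have k2 : A * m < N * q ^ 3 := by nlinarith
  have k3 : q ^ 3 + 1 < c := by nlinarith [Nat.pow_le_pow_left q2 3]
  nlinarith

/-- the span of the special lines on `z` -/
def UU (B : LinearMap.BilinForm F V) (K : Subgroup (V ≃ₗ[F] V)) (z : V) : Submodule F V :=
  span F (insert z {y | DL B K z y})

theorem ti_span {s : Set V} (h : ∀ a ∈ s, ∀ b ∈ s, B a b = 0) :
    ∀ a ∈ span F s, ∀ b ∈ span F s, B a b = 0 := fun _ ha b hb =>
  (span_le (p := LinearMap.ker (B.flip b))).2 (fun a ha =>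
    (span_le (p := LinearMap.ker (B a))).2 (fun b hb => h a ha b hb) hb) ha

theorem ti_line (S : Sy B) (h : B x y = 0) :
    ∀ a ∈ span F {x, y}, ∀ b ∈ span F {x, y}, B a b = 0 := ti_span fun a ha b hb => by
  rcases ha with rfl | rfl <;> rcases hb with rfl | rfl <;>
    simp [S.alt.self_eq_zero, h, S.alt.isRefl _ _ h]

theorem line_eq {W : Submodule F V} (hW : finrank F W = 2) (h : Ind F x y) (hx : x ∈ W)
    (hy : y ∈ W) : span F {x, y} = W :=
  eq_of_le_of_finrank_eq (span_le.2 (Set.pair_subset hx hy)) ((H38.KL.rk2 h).trans hW.symm)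

theorem dl_line (S : Sy B) (h : DL B K x y) {x' y' : V} (h' : Ind F x' y')
    (hx : x' ∈ span F {x, y}) (hy : y' ∈ span F {x, y}) : DL B K x' y' :=
  ⟨h', ti_line S h.2.1 _ hx _ hy, by rw [line_eq (H38.KL.rk2 h.1) h' hx hy]; exact h.2.2⟩

theorem dl_smul (S : Sy B) (h : DL B K x y) {c : F} (hc : c ≠ 0) : DL B K (c • x) y :=
  dl_line S h ⟨smul_ne_zero hc h.1.1, by rw [span_singleton_smul_eq hc.isUnit]; exact h.1.2⟩
    (smul_mem _ _ (subset_span (by simp))) (subset_span (by simp))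

theorem dl_map (hK : K ≤ Isom B) (h : DL B K x y) {g : V ≃ₗ[F] V} (hg : g ∈ K) :
    DL B K (g x) (g y) := by
  obtain ⟨h1, h2, k, hk, k1, k2⟩ := h
  refine ⟨h1.map g, (hK hg x y).trans h2, g * k * g⁻¹, K.mul_mem (K.mul_mem hg hk) (K.inv_mem hg),
    fun e => k1 (by simpa using e), ?_⟩
  have := k2.conj g
  rwa [Submodule.map_span, Set.image_pair] at this

theorem uu_self : z ∈ UU B K z := subset_span (Or.inl rfl)

theorem uu_map (hK : K ≤ Isom B) {g : V ≃ₗ[F] V} (hg : g ∈ K) (h : y ∈ UU B K z) :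
    g y ∈ UU B K (g z) :=
  (span_le (p := (UU B K (g z)).comap (g : V →ₗ[F] V))).2 (fun a ha => subset_span (by
    rcases ha with rfl | ha
    exacts [Or.inl rfl, Or.inr (dl_map hK ha hg)])) h

theorem uu_smul (S : Sy B) {c : F} (hc : c ≠ 0) : UU B K (c • z) = UU B K z := by
  have key : ∀ (c : F) (z : V), c ≠ 0 → UU B K z ≤ UU B K (c • z) := fun c z hc =>
    span_le.2 fun a ha => by
      rcases ha with rfl | ha
      exacts [(smul_mem_iff _ hc).1 uu_self, subset_span (Or.inr (dl_smul S ha hc))]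
  refine le_antisymm ?_ (key c z hc)
  simpa [hc] using key c⁻¹ (c • z) (inv_ne_zero hc)

theorem nd (hK : K ≤ Isom B) (hT : NoTv K) (h : Ind F x y) {k : V ≃ₗ[F] V} (hk : k ∈ K)
    (k1 : k ≠ 1) (k2 : Sm k (span F {x, y})) {v : V} (hv : k v - v = 0) :
    ∀ a ∈ span F {x, y}, B a v = 0 := fun a ha => by
  by_contra h0
  have lt : span F {x, y} ⊓ LinearMap.ker (B.flip v) < span F {x, y} :=
    lt_of_le_of_ne inf_le_left fun e => h0 (e.ge ha).2
  have := finrank_lt_finrank_of_lt lt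
  rw [H38.KL.rk2 h] at this
  obtain ⟨m, hm⟩ := ((finrank_le_one_iff_isPrincipal _).1 (Nat.le_of_lt_succ this)).principal
  exact k1 (hT m k hk fun w => hm.le ⟨k2 w, perp_of_fix (hK hk) (sub_eq_zero.1 hv) w⟩)

theorem two_pts (S : Sy B) (h : Ind F x y) (h0 : B x y = 0) {k : V ≃ₗ[F] V} (hk : k ∈ Isom B)
    (k2 : Sm k (span F {x, y})) : ∃ m₁ ∈ span F {x, y}, ∃ m₂ ∈ span F {x, y}, m₁ ≠ 0 ∧ m₂ ≠ 0 ∧
      ∀ v, B (k v - v) v = 0 → k v - v ∈ (F ∙ m₁) ∨ k v - v ∈ F ∙ m₂ := by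
  have hx : x ∈ span F {x, y} := subset_span (by simp)
  by_cases c1 : ∃ v, B (k v - v) v = 0 ∧ k v - v ≠ 0
  swap
  · exact ⟨x, hx, x, hx, h.1, h.1, fun v hv => Or.inl (by
      rw [by_contra fun e => c1 ⟨v, hv, e⟩]; exact zero_mem _)⟩
  obtain ⟨v₁, a1, b1⟩ := c1
  by_cases c2 : ∃ v, B (k v - v) v = 0 ∧ k v - v ∉ F ∙ (k v₁ - v₁)
  swap
  · exact ⟨_, k2 v₁, _, k2 v₁, b1, b1, fun v hv => Or.inl (by_contra fun e => c2 ⟨v, hv, e⟩)⟩
  obtain ⟨v₂, a2, b2⟩ := c2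
  refine ⟨_, k2 v₁, _, k2 v₂, b1, fun e => b2 (e ▸ zero_mem _), fun v hv => ?_⟩
  have e := line_eq (H38.KL.rk2 h) ⟨b1, b2⟩ (k2 v₁) (k2 v₂)
  obtain ⟨a, b, hab⟩ := mem_span_pair.1 (e.ge (k2 v))
  have sy : ∀ v w, B (k v - v) w = B (k w - w) v := fun v w => by
    have h1 := ti_line S h0 _ (k2 v) _ (k2 w)
    simp only [map_sub, LinearMap.sub_apply, hk v w, ← S.alt.neg_eq v w,
      ← S.alt.neg_eq v (k w)] at h1 ⊢
    linear_combination -h1
  have h1 : 2 * a * b * B (k v₂ - v₂) v₁ = 0 := by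
    have e1 := sy v v₁
    have e2 := sy v v₂
    have e3 := sy v₁ v₂
    rw [← hab] at hv e1 e2
    simp only [map_add, map_smul, LinearMap.add_apply, LinearMap.smul_apply, smul_eq_mul] at hv e1 e2
    linear_combination hv + a * e1 + b * e2 - a * b * e3 - a ^ 2 * a1 - b ^ 2 * a2
  simp only [mul_eq_zero, S.two, false_or] at h1
  rcases h1 with (rfl | rfl) | h1
  · exact Or.inr (mem_span_singleton.2 ⟨b, by simpa using hab⟩)
  · exact Or.inl (mem_span_singleton.2 ⟨a, by simpa using hab⟩)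
  · refine absurd (sub_eq_zero.2 (k2.fix S hk fun w hw => ?_)) b1
    obtain ⟨a, b, rfl⟩ := mem_span_pair.1 (e.ge hw)
    rw [map_add, map_smul, map_smul, LinearMap.add_apply, LinearMap.smul_apply,
      LinearMap.smul_apply, a1, h1, smul_zero, smul_zero, add_zero]

theorem jobD2b : JobD2b.{u, v} := by
  intro F _ _ V _ _ _ B K S hK hT hP H x₀ y₀ h₀
  have := finV F V
  have ti : ∀ z, ∀ a ∈ UU B K z, ∀ b ∈ UU B K z, B a b = 0 := fun z => ti_span fun a ha b hb => by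
    rcases ha with rfl | ha <;> rcases hb with rfl | hb
    exacts [S.alt.self_eq_zero _, hb.2.1, S.alt.isRefl _ _ ha.2.1, H _ _ _ ha hb]
  have ex : ∀ x, x ≠ 0 → ∃ y, DL B K x y := fun x hx => by
    obtain ⟨g, hg, e⟩ := hP x₀ x h₀.1.1 hx
    obtain ⟨c, hc, e⟩ := exists_coef h₀.1.1 e
    exact ⟨g y₀, by simpa [e, hc] using dl_smul S (dl_map hK h₀ hg) (inv_ne_zero hc)⟩
  have le : ∀ x y, DL B K x y → span F {x, y} ≤ UU B K x := fun x y h =>
    span_le.2 (Set.pair_subset uu_self (subset_span (Or.inr h)))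
  have r1 : ∀ x y, x ≠ 0 → y ≠ 0 → finrank F (UU B K x) ≤ finrank F (UU B K y) := fun x y hx hy => by
    obtain ⟨g, hg, e⟩ := hP x y hx hy
    obtain ⟨c, hc, e⟩ := exists_coef hx e
    rw [← g.finrank_map_eq, ← uu_smul (z := y) S hc, ← e]
    exact finrank_mono (map_le_iff_le_comap.2 fun a ha => uu_map hK hg ha)
  have key : ∀ {x y z : V} {k : V ≃ₗ[F] V}, Ind F x y → k ∈ K → k ≠ 1 → Sm k (span F {x, y}) →
      (∀ a ∈ span F {x, y}, B a z = 0) → ∀ v ∈ UU B K z, ∀ a ∈ span F {x, y}, B a v ≠ 0 →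
      k v - v ≠ 0 ∧ k v - v ∈ UU B K z := fun {x y z k} h hk k1 k2 hz v hv a ha h0 =>
    ⟨fun e => h0 (nd hK hT h hk k1 k2 e a ha),
      sub_mem (by simpa [k2.fix S (hK hk) hz] using uu_map hK hk hv) hv⟩
  have r2 : finrank F (UU B K x₀) ≤ 2 := by
    by_contra h3
    obtain ⟨i₀, b₀, k, hk, k1, k2⟩ := h₀
    obtain ⟨m₁, a1, m₂, a2, b1, b2, hm⟩ := two_pts S i₀ b₀ (hK hk) k2
    let Z : V → Set V := fun m => {z | z ∈ {z : V | z ≠ 0} ∧ ∀ v ∈ UU B K z, B v m = 0}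
    have z1 : ∀ m m', m ≠ 0 → m' ≠ 0 → (Z m).ncard ≤ (Z m').ncard := fun m m' h h' => by
      obtain ⟨g, hg, e⟩ := hP m m' h h'
      obtain ⟨c, hc, e⟩ := exists_coef h e
      refine Set.ncard_le_ncard_of_injOn g (fun z hz => ⟨by simpa using hz.1, fun v hv => ?_⟩)
        g.injective.injOn
      have h1 := hz.2 _ (by simpa using uu_map hK (K.inv_mem hg) hv)
      rw [← hK hg, e] at h1
      simpa [hc] using h1
    have p := rk_perp S (UU B K x₀)
    obtain ⟨t, ht⟩ : ∃ t, t + 1 = Nat.card F ^ finrank F (B.orthogonal (UU B K x₀)) :=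
      ⟨_, ncard_ne_zero _⟩
    have z2 := dcount {z : V | z ≠ 0} {m : V | m ≠ 0} (fun z m => ∀ v ∈ UU B K z, B v m = 0)
      (m := t) (n := (Z m₁).ncard) (fun z hz => by
        have p1 := rk_perp S (UU B K z)
        have p2 := ncard_ne_zero (B.orthogonal (UU B K z))
        rw [le_antisymm (r1 z x₀ hz i₀.1) (r1 x₀ z i₀.1 hz), ← p, add_left_inj] at p1
        rw [p1, ← ht, add_left_inj] at p2
        rw [← p2]
        congr 1
        ext m
        exact and_comm) fun m hm => le_antisymm (z1 _ _ hm b1) (z1 _ _ b1 hm)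
    have z3 := Nat.eq_of_mul_eq_mul_left ((Set.ncard_pos (Set.toFinite _)).2 ⟨x₀, i₀.1⟩) z2
    have z4 : {z | z ∈ B.orthogonal (span F {x₀, y₀}) ∧ z ≠ 0} ⊆ Z m₁ ∪ Z m₂ := fun z hz => by
      by_cases h : ∃ v ∈ UU B K z, ∃ a ∈ span F {x₀, y₀}, B a v ≠ 0
      · obtain ⟨v, hv, a, ha, h⟩ := h
        obtain ⟨n1, n2⟩ := key i₀ hk k1 k2 hz.1 v hv a ha h
        have f : ∀ m, k v - v ∈ (F ∙ m) → z ∈ Z m := fun m h => by
          obtain ⟨c, hc⟩ := mem_span_singleton.1 h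
          have c0 : c ≠ 0 := fun e => n1 (by rw [← hc, e, zero_smul])
          exact ⟨hz.2, fun w hw => ti z w hw m ((smul_mem_iff _ c0).1 (hc ▸ n2))⟩
        exact (hm v (ti z _ n2 v hv)).imp (f _) (f _)
      · exact Or.inl ⟨hz.2, fun v hv => S.alt.isRefl _ _ (by_contra fun e => h ⟨v, hv, m₁, a1, e⟩)⟩
    have z5 := (Set.ncard_le_ncard z4).trans (Set.ncard_union_le _ _)
    have z6 := z1 _ _ b2 b1
    have p1 := rk_perp S (span F {x₀, y₀})
    have p2 := ncard_ne_zero (B.orthogonal (span F {x₀, y₀}))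
    rw [H38.KL.rk2 i₀] at p1
    have p3 := Nat.pow_le_pow_right (show 0 < Nat.card F from Nat.card_pos)
      (show finrank F (B.orthogonal (UU B K x₀)) + 1 ≤ finrank F (B.orthogonal (span F {x₀, y₀})) by
        omega)
    rw [pow_succ, ← ht, ← p2] at p3
    have := Nat.mul_le_mul_left (t + 1) (three_le S.two)
    omega
  have rk : ∀ x, x ≠ 0 → finrank F (UU B K x) = 2 := fun x hx =>
    le_antisymm ((r1 _ _ hx h₀.1.1).trans r2) (by
      obtain ⟨y, hy⟩ := ex x hx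
      exact (H38.KL.rk2 hy.1).ge.trans (finrank_mono (le x y hy)))
  have el : ∀ x y, DL B K x y → span F {x, y} = UU B K x := fun x y h =>
    eq_of_le_of_finrank_eq (le x y h) ((H38.KL.rk2 h.1).trans (rk x h.1.1).symm)
  have eq : ∀ x y, x ≠ 0 → y ≠ 0 → y ∈ UU B K x → UU B K y = UU B K x := fun x y hx hy h => by
    obtain ⟨y₁, h1⟩ := ex x hx
    obtain ⟨y', h2, h3⟩ := H62.exists_mem_notMem (W := UU B K x) (Z := F ∙ y) (by
      rw [finrank_span_singleton hy, rk x hx]; omega)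
    rw [← el y y' (dl_line S h1 ⟨hy, h3⟩ ((el _ _ h1).ge h) ((el _ _ h1).ge h2))]
    exact line_eq (rk x hx) ⟨hy, h3⟩ h h2
  refine ⟨UU B K, fun _ => uu_self, rk, eq, fun x _ y hy => ti x _ uu_self _ hy,
    fun x z hx hz h y hy w hw => ?_, fun g hg x _ y hy => uu_map hK hg hy⟩
  by_contra h0
  obtain ⟨y₁, h1⟩ := ex x hx
  have e := el _ _ h1
  obtain ⟨i, -, k, hk, k1, k2⟩ := h1
  obtain ⟨n1, n2⟩ := key i hk k1 k2 (e ▸ h) w hw y (e.ge hy) h0
  rw [← eq z _ hz n1 n2, eq x _ hx n1 (e.le (k2 w))] at hw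
  exact h0 (ti x y hy w hw)

end H44.KS
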