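/- ORE1 tower, slot Cyc: indecomposable invertible skew maps are cyclic; the even case. -/
import Cfsg.Agent.H56.OreKit

set_option autoImplicit false
set_option linter.unusedSectionVars false

namespace H44.OreCyc

open Module QuadraticMap Polynomial H56 H56.Ore

universe u

variable {F V : Type*} [Field F] [AddCommGroup V] [Module F V] {Q : QuadraticForm F V}
  {N : End F V} {v : V} {p q f : F[X]} {k : ℕ}

/-- The map `p ↦ p(N) v`. -/
noncomputable def ev (N : End F V) (v : V) : F[X] →ₗ[F] V :=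
  LinearMap.applyₗ v ∘ₗ (aeval N : F[X] →ₐ[F] End F V).toLinearMap

theorem ev_apply (p : F[X]) : ev N v p = aeval N p v := rfl

theorem aeval_mul (p q : F[X]) (x : V) : aeval N (p * q) x = aeval N p (aeval N q x) := by
  rw [map_mul, End.mul_apply]

theorem aeval_X_mul (p : F[X]) (x : V) : aeval N (p * X) x = aeval N p (N x) := by
  rw [aeval_mul, aeval_X]

theorem aeval_mul_X (p : F[X]) (x : V) : N (aeval N p x) = aeval N (X * p) x := by
  rw [aeval_mul, aeval_X]

theorem self_adj (hN : Skew Q N) (p : F[X]) (k : ℕ) (x y : V) :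
    polar Q (aeval N (expand F 2 p ^ k) x) y = polar Q x (aeval N (expand F 2 p ^ k) y) := by
  rw [hN.aeval, ← map_pow, bar_expand]

theorem polar_bar (hN : Skew Q N) (p q : F[X]) :
    polar Q (aeval N (bar p) v) (aeval N (bar q) v) = polar Q (aeval N p v) (aeval N q v) := by
  rw [hN.aeval, bar_bar, polar_comm Q (aeval N p v), hN.aeval, ← aeval_mul, ← aeval_mul, mul_comm]

/-- The radical of the cyclic submodule. -/
def J (Q : QuadraticForm F V) (N : End F V) (v : V) (p : F[X]) : Prop :=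
  ∀ q : F[X], polar Q (aeval N p v) (aeval N q v) = 0

theorem J.mul (hN : Skew Q N) (h : J Q N v p) (r : F[X]) : J Q N v (r * p) := fun q => by
  rw [aeval_mul, hN.aeval, ← aeval_mul, h]

theorem J.add (h : J Q N v p) (h' : J Q N v q) : J Q N v (p + q) := fun r => by
  rw [map_add, LinearMap.add_apply, polar_add_left, h, h', add_zero]

theorem J.bar (hN : Skew Q N) (h : J Q N v p) : J Q N v (bar p) := fun q => by
  rw [← bar_bar q, polar_bar hN, h]

theorem J.of_zero (h : aeval N p v = 0) : J Q N v p := fun q => by rw [h, polar_zero_left]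

section
variable (hN : Skew Q N) (hf : Irreducible f) (h0 : aeval N (expand F 2 f ^ (k + 1)) = 0)
  (hv : polar Q (aeval N (expand F 2 f ^ k) v) v ≠ 0)
include hN hf h0 hv

theorem dvd_of_even {c : F[X]} (h : J Q N v (expand F 2 c)) : f ^ (k + 1) ∣ c := by
  classical
  obtain ⟨i, hi, ha⟩ := (dvd_prime_pow hf.prime (k + 1)).1
    (EuclideanDomain.gcd_dvd_right c (f ^ (k + 1)))
  rcases hi.eq_or_lt with rfl | hi
  · exact ha.symm.dvd.trans (EuclideanDomain.gcd_dvd_left _ _)
  obtain ⟨r, hr⟩ := ha.dvd.trans (pow_dvd_pow f (Nat.lt_succ_iff.1 hi))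
  have h1 : J Q N v (expand F 2 f ^ (k + 1)) := J.of_zero (by rw [h0]; rfl)
  have h2 := ((h.mul hN (expand F 2 (EuclideanDomain.gcdA c (f ^ (k + 1))))).add
    (h1.mul hN (expand F 2 (EuclideanDomain.gcdB c (f ^ (k + 1)))))).mul hN (expand F 2 r) 1
  rw [← map_pow, ← map_mul, ← map_mul, ← map_add, ← map_mul, mul_comm _ c,
    mul_comm _ (f ^ (k + 1)), ← EuclideanDomain.gcd_eq_gcd_ab, mul_comm, ← hr, map_pow,
    map_one] at h2
  exact absurd h2 hv

theorem dvd_of_J (h2 : (2 : F) ≠ 0) (hc : f.coeff 0 ≠ 0) (h : J Q N v p) :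
    expand F 2 f ^ (k + 1) ∣ p := by
  obtain ⟨a, b, rfl⟩ := exists_even_odd p
  obtain ⟨d, e⟩ : ∃ d : F[X], d * 2 = 1 :=
    ⟨C 2⁻¹, by rw [← map_ofNat C 2, ← map_mul, inv_mul_cancel₀ h2, map_one]⟩
  have hb := h.bar hN
  rw [show bar (expand F 2 a + X * expand F 2 b) = expand F 2 a - X * expand F 2 b by
    simp [sub_eq_add_neg]] at hb
  have h1 : J Q N v (expand F 2 a) := by
    convert (h.add hb).mul hN d using 1
    linear_combination -expand F 2 a * e
  have h3 : J Q N v (expand F 2 (X * b)) := by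
    convert (h.add (hb.mul hN (-1))).mul hN (d * X) using 1
    rw [map_mul, expand_X]
    linear_combination -X ^ 2 * expand F 2 b * e
  have h4 := hf.prime.pow_dvd_of_dvd_mul_left (k + 1) (fun d => hc (X_dvd_iff.1
    (hf.associated_of_dvd irreducible_X d).symm.dvd)) (dvd_of_even hN hf h0 hv h3)
  rw [← map_pow]
  exact dvd_add (_root_.map_dvd (expand F 2) (dvd_of_even hN hf h0 hv h1))
    ((_root_.map_dvd (expand F 2) h4).mul_left _)

end

theorem exists_polar_ne (hQ : Q.polarBilin.Nondegenerate) (h2 : (2 : F) ≠ 0) {T : End F V}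
    (hT : ∀ x y, polar Q (T x) y = polar Q x (T y)) (h0 : T ≠ 0) : ∃ v, polar Q (T v) v ≠ 0 := by
  by_contra! h
  refine h0 (LinearMap.ext fun x => eq_zero_of_polar hQ fun y => mul_left_cancel₀ h2 ?_)
  have := h (x + y)
  rw [map_add, polar_add_left, polar_add_right, polar_add_right, h, h, hT y,
    polar_comm Q y] at this
  linear_combination this

theorem exists_primary [FiniteDimensional F V] [Nontrivial V] (hQ : Q.polarBilin.Nondegenerate)
    (hN : Skew Q N) (hI : Ind Q N) :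
    ∃ f : F[X], Irreducible f ∧ f.Monic ∧ ∃ n, aeval N (expand F 2 f ^ n) = 0 := by
  have hi : IsIntegral F (N ^ 2) := Algebra.IsIntegral.isIntegral _
  obtain ⟨f, hm, hf, hd⟩ := exists_monic_irreducible_factor _ (minpoly.not_isUnit F (N ^ 2))
  obtain ⟨n, h, hh, e⟩ := WfDvdMonoid.max_power_factor' (minpoly.ne_zero hi) hf.not_isUnit
  have h1 : ∀ y, aeval N (expand F 2 f ^ n) (aeval N (expand F 2 h) y) = 0 := fun y => by
    rw [← aeval_mul, ← map_pow, ← map_mul, ← e, aeval_expand, minpoly.aeval]; rfl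
  obtain ⟨a, b, hab⟩ := (hf.coprime_iff_not_dvd.2 hh).pow_left (m := n)
  refine ⟨f, hf, hm, n, ?_⟩
  rcases hI (LinearMap.ker (aeval N (expand F 2 f ^ n))) (fun x hx => by
    rw [LinearMap.mem_ker] at hx ⊢
    rw [← aeval_X_mul, mul_comm, ← aeval_mul_X, hx, map_zero])
    (Submodule.disjoint_def.2 fun x hx hx' => eq_zero_of_polar hQ fun y => by
      have : y = aeval N (expand F 2 f ^ n) (aeval N (expand F 2 a) y) +
          aeval N (expand F 2 h) (aeval N (expand F 2 b) y) := by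
        rw [← aeval_mul, ← aeval_mul, ← LinearMap.add_apply, ← map_add, ← map_pow, ← map_mul,
          ← map_mul, ← map_add, mul_comm _ a, mul_comm _ b, hab, map_one, map_one]; rfl
      rw [this, polar_add_right, ← self_adj hN, LinearMap.mem_ker.1 hx, polar_zero_left, zero_add]
      exact mem_perp'.1 hx' _ (h1 _)) with e1 | e1
  · refine absurd (hd.trans (minpoly.dvd F _ ?_)) hh
    rw [← aeval_expand]
    exact LinearMap.ext fun y => (Submodule.mem_bot F).1 (e1 ▸ LinearMap.mem_ker.2 (h1 y))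
  · exact LinearMap.ker_eq_top.1 e1

theorem jobCyc : JobCyc.{u} := by
  intro F V _ _ _ _ _ Q hQ h2 N hV hN hI hU
  classical
  obtain ⟨f, hf, hm, hn⟩ := exists_primary hQ hN hI
  obtain ⟨k, hk⟩ : ∃ k, Nat.find hn = k + 1 := Nat.exists_eq_succ_of_ne_zero fun e => by
    have := Nat.find_spec hn
    rw [e, pow_zero, map_one] at this
    exact one_ne_zero this
  have h0 := Nat.find_spec hn
  rw [hk] at h0
  obtain ⟨v, hv⟩ := exists_polar_ne hQ h2 (self_adj hN f k) (Nat.find_min hn (by omega))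
  have hc : f.coeff 0 ≠ 0 := fun e => by
    obtain ⟨g, rfl⟩ := X_dvd_iff.2 e
    have := ((hU.pow 2).mul ((((hf.isUnit_or_isUnit rfl).resolve_left not_isUnit_X).map
      (expand F 2)).map (aeval N))).pow (k + 1)
    rw [map_pow, map_mul, map_mul, expand_X, map_pow, aeval_X] at h0
    exact not_isUnit_zero (h0 ▸ this)
  have hz : ∀ p, expand F 2 f ^ (k + 1) ∣ p → aeval N p v = 0 := by
    rintro _ ⟨r, rfl⟩
    rw [map_mul, h0, zero_mul]; rfl
  refine ⟨f, k + 1, v, hf, hm, hc, by omega, fun p =>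
    ⟨fun h => dvd_of_J hN hf h0 hv h2 hc (J.of_zero h), hz p⟩, fun x => ?_⟩
  rcases hI (LinearMap.range (ev N v)) (by
    rintro _ ⟨p, rfl⟩
    exact ⟨X * p, by rw [ev_apply, aeval_mul, aeval_X, ev_apply]⟩)
    (Submodule.disjoint_def.2 (by
      rintro _ ⟨p, rfl⟩ hp
      exact hz p (dvd_of_J hN hf h0 hv h2 hc fun q => mem_perp'.1 hp _ ⟨q, rfl⟩))) with e | e
  · have : v = 0 := (Submodule.mem_bot F).1 (e ▸ ⟨1, by rw [ev_apply, map_one]; rfl⟩)
    exact absurd (by rw [this, polar_zero_right]) hv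
  · exact (e.ge Submodule.mem_top : x ∈ LinearMap.range (ev N v))

/-- The involution `p(N) v ↦ p(-N) v`. -/
theorem exists_anti (hQ : Q.polarBilin.Nondegenerate) (h2 : (2 : F) ≠ 0) (hN : Skew Q N)
    (hs : ∀ x, ∃ p : F[X], aeval N p v = x) :
    ∃ s : O Q, Anti N s ∧ ∀ p : F[X], s (aeval N p v) = aeval N (bar p) v := by
  obtain ⟨s, h1, h3⟩ := exists_bar hQ h2 (ev N v) bar.toLinearMap hs bar_bar (polar_bar hN)
  refine ⟨s, ⟨h1, fun x => ?_⟩, h3⟩
  obtain ⟨p, rfl⟩ := hs x
  have e := h3 (X * p)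
  simp only [ev_apply, AlgHom.toLinearMap_apply, map_mul, bar_X, End.mul_apply, aeval_X,
    map_neg, LinearMap.neg_apply] at e
  rw [e]
  exact congrArg (fun y => -N y) (h3 p).symm

theorem jobEv (hH : JobHyp.{u}) : JobEv.{u} := by
  intro F V _ _ _ _ _ Q hQ h2 N f k v hN hU ⟨hf, _, _, _, ha, hs⟩ ⟨j, hj⟩
  obtain ⟨s, h1, -⟩ := exists_anti hQ h2 hN hs
  have hL : ∀ x ∈ LinearMap.range (aeval N (expand F 2 f ^ j)),
      s x ∈ LinearMap.range (aeval N (expand F 2 f ^ j)) := by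
    rintro _ ⟨y, rfl⟩
    exact ⟨s y, by rw [h1.aeval, ← map_pow, bar_expand]⟩
  obtain ⟨e1, e2⟩ := hH hQ h2 s (LinearMap.range (aeval N (expand F 2 f ^ j))) h1.1 (by
    rintro _ ⟨y, rfl⟩
    obtain ⟨p, rfl⟩ := hs y
    refine mul_left_cancel₀ h2 ?_
    rw [← polar_self', self_adj hN, ← aeval_mul, ← aeval_mul, ← pow_add, ← hj,
      (ha _).2 (dvd_mul_right _ _), polar_zero_right, mul_zero]) hL fun x hx => by
    rw [perp_range hQ (self_adj hN f j), LinearMap.mem_ker] at hx
    obtain ⟨p, rfl⟩ := hs x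
    rw [← aeval_mul, ha, hj, pow_add] at hx
    obtain ⟨r, rfl⟩ := (mul_dvd_mul_iff_left (pow_ne_zero j
      ((expand_ne_zero two_pos).2 hf.ne_zero))).1 hx
    exact sub_mem (hL _ ⟨_, (aeval_mul _ _ _).symm⟩) ⟨_, (aeval_mul _ _ _).symm⟩
  have hk : LinearMap.ker N = ⊥ := LinearMap.ker_eq_bot.2 ((End.isUnit_iff N).1 hU).1
  obtain ⟨e3, e4⟩ := rk_bound h2 h1 (d := 1) (by rw [hk, bot_inf_eq, finrank_bot]; omega)
    (by rw [hk, bot_inf_eq, finrank_bot]; omega)
  exact ⟨s, h1, e1, e3, e4, e2⟩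

end H44.OreCyc
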