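/- PN tower (S3399), slot TW: 2-transitivity of tight constituents, 3-transitivity of a
counterexample. -/
import Cfsg.Agent.H42.PnSpec

set_option autoImplicit false
set_option linter.unusedSectionVars false

namespace H44.PN
open Equiv MulAction Pointwise H2.Ln H42.PN

variable {α : Type} [Fintype α] [DecidableEq α]

theorem mem_fx1 {H : Subgroup (Perm α)} {a : α} {x : Perm α} : x ∈ fx H {a} ↔ x ∈ H ∧ x a = a := by
  simp [mem_fx]

theorem le_fx1 {H K : Subgroup (Perm α)} (h : K ≤ H) {a : α} (ha : a ∈ fp K) : K ≤ fx H {a} :=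
  fun k hk => mem_fx1.2 ⟨h hk, mem_fp.1 ha k hk⟩

theorem pro_fx1 {H K : Subgroup (Perm α)} (h : Pro H K) (a : α) : Pro (fx H {a}) K :=
  h.mono fun _ hx => (mem_fx1.1 hx).1

theorem erase_inv {H : Subgroup (Perm α)} {Δ : Finset α} (h : ∀ g ∈ H, ∀ x ∈ Δ, g x ∈ Δ) (a : α) :
    ∀ g ∈ fx H {a}, ∀ x ∈ Δ.erase a, g x ∈ Δ.erase a := by
  intro g hg x hx
  obtain ⟨h1, h2⟩ := mem_fx1.1 hg
  rw [Finset.mem_erase] at hx ⊢
  exact ⟨fun e => hx.1 (g.injective (e.trans h2.symm)), h g h1 x hx.2⟩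

theorem card_erase {Δ F : Finset α} {a : α} (ha : a ∈ Δ) (hF : a ∈ F) :
    Δ.card = (Δ.erase a).card + 1 ∧ (Δ ∩ F).card = (Δ.erase a ∩ F).card + 1 := by
  refine ⟨(Finset.card_erase_add_one ha).symm, ?_⟩
  rw [Finset.erase_inter, Finset.card_erase_add_one (Finset.mem_inter.2 ⟨ha, hF⟩)]

/-- Transitive with a transitive point stabiliser. -/
theorem t2_of {H : Subgroup (Perm α)} {Δ : Finset α} (hi : ∀ g ∈ H, ∀ x ∈ Δ, g x ∈ Δ)
    (ht : ∀ x ∈ Δ, ∀ y ∈ Δ, ∃ g ∈ H, g x = y) {a : α} (ha : a ∈ Δ)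
    (h : ∀ u ∈ Δ.erase a, ∀ v ∈ Δ.erase a, ∃ g ∈ fx H {a}, g u = v) : T2 H Δ := by
  intro x hx y hy x' hx' y' hy' e e'
  obtain ⟨g, hg, rfl⟩ := ht x hx a ha
  obtain ⟨g', hg', e2⟩ := ht x' hx' _ ha
  obtain ⟨k, hk, e3⟩ := h (g y) (Finset.mem_erase.2 ⟨g.injective.ne e.symm, hi g hg y hy⟩) (g' y')
    (Finset.mem_erase.2 ⟨e2 ▸ g'.injective.ne e'.symm, hi g' hg' y' hy'⟩)
  obtain ⟨h1, h2⟩ := mem_fx1.1 hk
  refine ⟨g'⁻¹ * k * g, H.mul_mem (H.mul_mem (H.inv_mem hg') h1) hg, ?_, ?_⟩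
  · rw [Perm.mul_apply, Perm.mul_apply, h2, ← e2, Perm.inv_def, Equiv.symm_apply_apply]
  · rw [Perm.mul_apply, Perm.mul_apply, e3, Perm.inv_def, Equiv.symm_apply_apply]

/-- Transitive with a 2-transitive point stabiliser. -/
theorem t3_of {H : Subgroup (Perm α)} {Δ : Finset α} (hi : ∀ g ∈ H, ∀ x ∈ Δ, g x ∈ Δ)
    (ht : ∀ x ∈ Δ, ∀ y ∈ Δ, ∃ g ∈ H, g x = y) {a : α} (ha : a ∈ Δ)
    (h : T2 (fx H {a}) (Δ.erase a)) : T3 H Δ := by
  intro x hx y hy z hz x' hx' y' hy' z' hz' e e'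
  simp only [List.nodup_cons, List.mem_cons, List.not_mem_nil, or_false, not_or] at e e'
  obtain ⟨g, hg, rfl⟩ := ht x hx a ha
  obtain ⟨g', hg', e2⟩ := ht x' hx' _ ha
  obtain ⟨k, hk, e3, e4⟩ := h
    (g y) (Finset.mem_erase.2 ⟨g.injective.ne (Ne.symm e.1.1), hi g hg y hy⟩)
    (g z) (Finset.mem_erase.2 ⟨g.injective.ne (Ne.symm e.1.2), hi g hg z hz⟩)
    (g' y') (Finset.mem_erase.2 ⟨e2 ▸ g'.injective.ne (Ne.symm e'.1.1), hi g' hg' y' hy'⟩)
    (g' z') (Finset.mem_erase.2 ⟨e2 ▸ g'.injective.ne (Ne.symm e'.1.2), hi g' hg' z' hz'⟩)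
    (g.injective.ne e.2.1) (g'.injective.ne e'.2.1)
  obtain ⟨h1, h2⟩ := mem_fx1.1 hk
  refine ⟨g'⁻¹ * k * g, H.mul_mem (H.mul_mem (H.inv_mem hg') h1) hg, ?_, ?_, ?_⟩
  · rw [Perm.mul_apply, Perm.mul_apply, h2, ← e2, Perm.inv_def, Equiv.symm_apply_apply]
  · rw [Perm.mul_apply, Perm.mul_apply, e3, Perm.inv_def, Equiv.symm_apply_apply]
  · rw [Perm.mul_apply, Perm.mul_apply, e4, Perm.inv_def, Equiv.symm_apply_apply]

theorem sit_orb {L K : Subgroup (Perm α)} (hK : K ≤ L) (hp : Pro L K) {u : α}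
    (hu : ¬ orb L u ⊆ fp K) : Sit L K (orb L u) :=
  ⟨hK, hp, orb_inv, orb_tr, Finset.not_subset.1 hu⟩

theorem tw_aux (hA : All1) (K : Subgroup (Perm α)) (N : ℕ) (hL : Loc N) (hQ : Quo N) (m : ℕ) :
    ∀ (H : Subgroup (Perm α)) (Δ : Finset α), Δ.card = m → Sit H K Δ → Δ.card < N →
      Δ.card = 2 * (Δ ∩ fp K).card + 1 → T2 H Δ := by
  induction m using Nat.strong_induction_on with | h m ih =>
  intro H Δ hm s hN hd
  rcases (Δ ∩ fp K).eq_empty_or_nonempty with e | ⟨a, ha⟩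
  · rw [e] at hd
    intro x hx y hy _ _ _ _ e _
    exact absurd (Finset.card_le_one.1 (by simpa using hd.le) x hx y hy) e
  obtain ⟨ha, hF⟩ := Finset.mem_inter.1 ha
  have hK := le_fx1 s.le hF
  have hp := pro_fx1 s.pro a
  have hi := erase_inv s.inv a
  obtain ⟨c1, c2⟩ := card_erase ha hF
  have hno : ∀ u ∈ Δ.erase a, ¬ orb (fx H {a}) u ⊆ fp K := fun u hu hs => by
    have := hQ α H K Δ s hN.le a ha hF u (Finset.mem_of_mem_erase hu) (Finset.ne_of_mem_erase hu) hs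
    omega
  refine t2_of s.inv s.tr ha ?_
  by_cases h1 : ∃ u ∈ Δ.erase a, Δ.erase a \ orb (fx H {a}) u = ∅
  · obtain ⟨u, -, e⟩ := h1
    rw [Finset.sdiff_eq_empty_iff_subset] at e
    exact fun x hx y hy => orb_tr x (e hx) y (e hy)
  push Not at h1
  have key := hA α H K N Δ hL s hN.le a ha hF fun u hu hua O hO => by
    subst hO
    have hu' := Finset.mem_erase.2 ⟨hua, hu⟩
    have hs := orb_sub hi hu'
    have hc := Finset.card_le_card hs
    have h2 := hL.orb hK hp (by omega) (hno u hu')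
    obtain ⟨e1, e2⟩ := card_split hs (fp K)
    have h3 := (hL.sum hK hp _ (sdiff_orb_inv hi u) (by omega)
      fun v hv => hno v (Finset.mem_sdiff.1 hv).1).resolve_left (h1 u hu').ne_empty
    have h4 : (orb (fx H {a}) u).card = 2 * (orb (fx H {a}) u ∩ fp K).card + 1 := by omega
    exact ⟨hno u hu', h4, ih _ (by omega) _ _ rfl (sit_orb hK hp (hno u hu')) (by omega) h4⟩
  intro x hx y hy
  have := key x (Finset.mem_of_mem_erase hx) (Finset.ne_of_mem_erase hx)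
  have hy' := Finset.mem_of_mem_erase hy
  rw [← this, Finset.mem_insert] at hy'
  exact mem_orb.1 (hy'.resolve_left (Finset.ne_of_mem_erase hy))

theorem jobTw : All1 → Tw := fun hA _ _ _ H K N Δ hL hQ s hN hd =>
  tw_aux hA K N hL hQ _ H Δ rfl s hN hd

theorem jobThr : Tw → Thr := by
  intro hT α _ _ G K hL hQ s hn
  obtain ⟨b, -, hb⟩ := s.mv
  have hpos : 0 < Fintype.card α := Fintype.card_pos_iff.2 ⟨b⟩
  obtain ⟨a, hF⟩ : (fp K).Nonempty := Finset.card_pos.1 (by omega)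
  have ha := Finset.mem_univ a
  have hK := le_fx1 s.le hF
  have hp := pro_fx1 s.pro a
  have hi := erase_inv s.inv a
  obtain ⟨c1, c2⟩ := card_erase ha hF
  rw [Finset.univ_inter] at c2
  rw [Finset.card_univ] at c1
  have hno : ∀ u ∈ Finset.univ.erase a, ¬ orb (fx G {a}) u ⊆ fp K := fun u hu hs => by
    have := hQ α G K _ s Finset.card_univ.le a ha hF u (Finset.mem_univ u)
      (Finset.ne_of_mem_erase hu) hs
    rw [Finset.univ_inter, Finset.card_univ] at this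
    omega
  have hb' : b ∈ Finset.univ.erase a :=
    Finset.mem_erase.2 ⟨fun e => hb (e ▸ hF), Finset.mem_univ b⟩
  have hs := orb_sub hi hb'
  have hc := Finset.card_le_card hs
  have h2 := hL.orb hK hp (by omega) (hno b hb')
  obtain ⟨e1, e2⟩ := card_split hs (fp K)
  have h3 : Finset.univ.erase a \ orb (fx G {a}) b = ∅ := by
    refine (hL.sum hK hp _ (sdiff_orb_inv hi b) (by omega)
      fun v hv => hno v (Finset.mem_sdiff.1 hv).1).resolve_right ?_
    omega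
  rw [h3] at e1 e2
  simp only [Finset.card_empty, Finset.empty_inter] at e1 e2
  have hO : orb (fx G {a}) b = Finset.univ.erase a :=
    Finset.eq_of_subset_of_card_le hs (by omega)
  have h2n : Fintype.card α = 2 * (fp K).card := by omega
  have t2 := hT α _ K _ _ hL hQ (sit_orb hK hp (hno b hb')) (by omega) (by omega)
  rw [hO] at t2
  have t3 := t3_of s.inv s.tr ha t2
  refine ⟨h2n, t3, ?_⟩
  by_contra h4
  have hcc : (fp K)ᶜ.card = (fp K).card := by rw [Finset.card_compl]; omega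
  have key : ∀ g ∈ G, (∀ x ∈ fp K, g x ∈ (fp K)ᶜ) → False := fun g hg h => by
    refine s.pro.nos ⟨a, hF⟩ hg (Finset.eq_of_subset_of_card_le (fun x hx => ?_) ?_)
    · simpa using h _ (mem_sm.1 hx)
    · rw [Finset.card_smul_finset, hcc]
  have hu := fun x : α => Finset.mem_univ x
  have : (fp K).card = 1 ∨ (fp K).card = 2 ∨ (fp K).card = 3 := by omega
  rcases this with h | h | h
  · obtain ⟨x, ex⟩ := Finset.card_eq_one.1 h
    obtain ⟨x', ex'⟩ := Finset.card_eq_one.1 (hcc.trans h)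
    obtain ⟨g, hg, e⟩ := s.tr x (hu x) x' (hu x')
    exact key g hg (by rw [ex', ex]; simp [e])
  · obtain ⟨x, y, n1, ex⟩ := Finset.card_eq_two.1 h
    obtain ⟨x', y', n2, ex'⟩ := Finset.card_eq_two.1 (hcc.trans h)
    obtain ⟨g, hg, e, e'⟩ := t3.t2 (by rw [Finset.card_univ]; omega) x (hu x) y (hu y) x' (hu x')
      y' (hu y') n1 n2
    exact key g hg (by rw [ex', ex]; simp [e, e'])
  · obtain ⟨x, y, z, n1, n2, n3, ex⟩ := Finset.card_eq_three.1 h
    obtain ⟨x', y', z', m1, m2, m3, ex'⟩ := Finset.card_eq_three.1 (hcc.trans h)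
    obtain ⟨g, hg, e, e', e''⟩ := t3 x (hu x) y (hu y) z (hu z) x' (hu x') y' (hu y') z' (hu z')
      (by simp [n1, n2, n3]) (by simp [m1, m2, m3])
    exact key g hg (by rw [ex', ex]; simp [e, e', e''])

end H44.PN
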