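/- Tower SPIN (S4578), slots PE, PZ and W2. -/
import Cfsg.Agent.H2.SpSpec

set_option autoImplicit false

namespace H44.Sp

open Cfsg Equiv Equiv.Perm H2.Sp Subgroup H28

universe u

theorem jobPE : PE := fun Ω _ _ p hp c w hc => by
  let ψ := Subgroup.noncommPiCoprod c.pairwise_commute_of_mem_zpowers
  have hψ : ψ.range = Ec c := by
    rw [Subgroup.noncommPiCoprod_range]
    exact le_antisymm (iSup_le fun f => zpowers_le.2 (subset_closure f.2))
      ((closure_le _).2 fun f hf => mem_iSup_of_mem ⟨f, hf⟩ (mem_zpowers f))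
  have kp : ∀ u v, OnCycleFactors.kerParam c (u, v) = ofSubtype u * ψ v := fun u v => rfl
  have fx : ∀ x ∈ Ec c, ∀ a, c a = a → x a = a := fun x hx a ha =>
    (show Ec c ≤ MulAction.stabilizer (Perm Ω) a from (closure_le _).2 fun f hf =>
      notMem_support.1 fun k => mem_support.1 (mem_cycleFactorsFinset_support_le hf k) ha) hx
  refine ⟨?_, fun x hx y hy => ?_, fun x hx a h k => h (fx x hx a k), fun g hg => ?_, fun g hg hs => ?_⟩
  · have inj : Function.Injective ψ := fun v v' e => congrArg Prod.snd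
      (OnCycleFactors.kerParam_injective c (a₁ := (1, v)) (a₂ := (1, v')) (by rw [kp, kp, e]))
    rw [← hψ, ← Nat.card_congr (MonoidHom.ofInjective inj).toEquiv, Nat.card_pi,
      Finset.prod_congr rfl (g := fun _ => p) fun f _ => ?_, Finset.prod_const, Finset.card_univ,
      Fintype.card_coe, ← Multiset.card_replicate w p, ← hc, cycleType_def, Multiset.card_map]
    · rfl
    rw [Nat.card_zpowers, (mem_cycleFactorsFinset_iff.1 f.2).1.orderOf]
    exact Multiset.eq_of_mem_replicate (n := w) (by rw [← hc]; exact Multiset.mem_map_of_mem _ f.2)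
  · have h1 : ∀ f ∈ c.cycleFactorsFinset, Ec c ≤ centralizer {f} := fun f hf => (closure_le _).2
      fun g hg => mem_centralizer_singleton_iff.2 (cycleFactorsFinset_mem_commute' c hg hf)
    exact mem_centralizer_singleton_iff.1 ((show Ec c ≤ centralizer {y} from (closure_le _).2 fun f hf =>
      mem_centralizer_singleton_iff.2 (mem_centralizer_singleton_iff.1 (h1 f hf hy)).symm) hx)
  · refine mem_normalizer_fintype fun n hn => (show Ec c ≤ (Ec c).comap (MulAut.conj g).toMonoidHom from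
      (closure_le _).2 fun f hf => subset_closure ?_) hn
    have := (mem_cycleFactorsFinset_conj c g f).2 hf
    rwa [hg.mul_inv_cancel] at this
  · have h1 : g ∈ (OnCycleFactors.kerParam c).range := by
      rw [OnCycleFactors.kerParam_range_eq]
      exact ⟨⟨g, mem_centralizer_singleton_iff.2 (commute_of_mem_cycleFactorsFinset_commute g c hg)⟩,
        (OnCycleFactors.mem_ker_toPermHom_iff _ _).2 hg, rfl⟩
    obtain ⟨⟨u, v⟩, e⟩ := h1
    have hv : ψ v ∈ Ec c := hψ ▸ ⟨v, rfl⟩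
    have : ofSubtype u = 1 := Perm.ext fun a => by
      by_cases ha : c a = a
      · have h2 : g a = a := by_contra fun k => hs a k ha
        rwa [← e, kp, mul_apply, fx _ hv a ha] at h2
      · exact ofSubtype_apply_of_not_mem u ha
    rwa [← e, kp, this, one_mul]

theorem exists_y {Ω : Type} [Fintype Ω] [DecidableEq Ω] {p : ℕ} (hp : p.Prime) {D : Subgroup (Perm Ω)}
    (hD : IsPGroup p D) {a : Ω} (ha : a ∈ mv D) : ∃ y : Perm Ω, y ^ p = 1 ∧ (∀ d ∈ D, Commute y d) ∧
    (∀ b, y b ≠ b ↔ ∃ d ∈ D, d a = b) ∧ ∀ b, ∃ d ∈ D, y b = d b := by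
  classical
  have := Fact.mk hp
  let q : Ω → Prop := fun b => ∃ d ∈ D, d a = b
  have hq : ∀ d ∈ D, ∀ b, q (d b) ↔ q b := fun d hd b =>
    ⟨fun ⟨e, he, k⟩ => ⟨d⁻¹ * e, mul_mem (inv_mem hd) he, by simp [k]⟩,
      fun ⟨e, he, k⟩ => ⟨d * e, mul_mem hd he, by simp [k]⟩⟩
  let φ : D →* Perm Ω := ofSubtype.comp (MonoidHom.mk' (fun d => d.1.subtypePerm (hq d.1 d.2))
    fun _ _ => rfl)
  have f1 : ∀ (d : D) b, q b → φ d b = d.1 b := fun d b hb => ofSubtype_subtypePerm_of_mem (hq d.1 d.2) hb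
  have f2 : ∀ (d : D) b, ¬ q b → φ d b = b := fun d b hb => ofSubtype_subtypePerm_of_not_mem (hq d.1 d.2) hb
  have hR : IsPGroup p φ.range := hD.of_surjective _ φ.rangeRestrict_surjective
  obtain ⟨d1, h1, h2⟩ := ha
  have : Nontrivial φ.range := ⟨⟨φ ⟨d1, h1⟩, _, rfl⟩, 1, fun e => h2 (by
    rw [← f1 ⟨d1, h1⟩ a ⟨1, one_mem _, rfl⟩, show φ ⟨d1, h1⟩ = 1 from congrArg Subtype.val e]; rfl)⟩
  have := hR.center_nontrivial
  obtain ⟨⟨⟨_, d, rfl⟩, hz⟩, ho⟩ := exists_prime_orderOf_dvd_card' (G := center φ.range) p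
    ((hR.to_subgroup _).card_eq_or_dvd.resolve_left Finite.one_lt_card.ne')
  rw [← orderOf_coe, ← orderOf_coe] at ho
  change orderOf (φ d) = p at ho
  have cm : ∀ e ∈ D, Commute (φ d) e := fun e he => Perm.ext fun b => by
    by_cases hb : q b
    · have : φ ⟨e, he⟩ (φ d b) = φ d (φ ⟨e, he⟩ b) :=
        congrArg (fun z : φ.range => z.1 b) (mem_center_iff.1 hz ⟨φ ⟨e, he⟩, _, rfl⟩)
      rw [f1 ⟨e, he⟩ b hb, f1 ⟨e, he⟩ _ (by rw [f1 d b hb]; exact (hq _ d.2 b).2 hb)] at this
      exact this.symm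
    · rw [mul_apply, mul_apply, f2 d b hb, f2 d _ fun k => hb ((hq e he b).1 k)]
  refine ⟨φ d, ho ▸ pow_orderOf_eq_one _, cm, fun b => ⟨fun h => by_contra fun k => h (f2 d b k), ?_⟩,
    fun b => ?_⟩
  · rintro ⟨e, he, rfl⟩ h
    have h3 : φ d a = a := e.injective (by rw [← mul_apply, ← (cm e he).eq, mul_apply, h])
    have : φ d = 1 := Perm.ext fun b => by
      by_cases hb : q b
      · obtain ⟨e', he', rfl⟩ := hb
        rw [← mul_apply, (cm e' he').eq, mul_apply, h3, one_apply]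
      · exact f2 d b hb
    rw [this, orderOf_one] at ho
    exact hp.one_lt.ne ho
  · by_cases hb : q b
    exacts [⟨d, d.2, f1 d b hb⟩, ⟨1, one_mem _, f2 d b hb⟩]

theorem jobPZ : PZ := fun Ω _ _ p hp D hD => by
  have := Fact.mk hp
  refine ⟨fun a ha => exists_y hp hD ha, ?_⟩
  obtain ⟨c, ⟨h1, h2, h3⟩, h4⟩ := Set.exists_max_image
    {c : Perm Ω | c ^ p = 1 ∧ (∀ d ∈ D, Commute c d) ∧ ∀ a, c a ≠ a → a ∈ mv D} (fun c => c.support.card)
    (Set.toFinite _) ⟨1, one_pow p, fun d _ => Commute.one_left d, fun a h => absurd rfl h⟩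
  refine ⟨c, _, cycleType_of_pow_prime_eq_one h1, h2, fun a => ⟨h3 a, fun ha hc => ?_⟩⟩
  obtain ⟨y, y1, y2, y3, y4⟩ := exists_y hp hD ha
  have dj : Perm.Disjoint c y := fun b => by
    by_cases hb : y b = b
    · exact .inr hb
    · obtain ⟨d, hd, rfl⟩ := (y3 b).1 hb
      exact .inl (by rw [← mul_apply, (h2 d hd).eq, mul_apply, hc])
  have := h4 (c * y) ⟨by rw [dj.commute.mul_pow, h1, y1, one_mul], fun d hd => (h2 d hd).mul_left (y2 d hd),
    fun b hb => by
      by_cases k : y b = b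
      · exact h3 b (by rwa [mul_apply, k] at hb)
      · obtain ⟨d, hd, e⟩ := y4 b
        exact ⟨d, hd, e ▸ k⟩⟩
  have h5 := Finset.card_pos.2 ⟨a, mem_support.2 ((y3 a).2 ⟨1, one_mem _, rfl⟩)⟩
  simp only [dj.card_support_mul] at this
  omega

theorem jobW2 : W2.{u} := fun Ω _ _ G H _ _ _ πG πH ι p hp ho sj inj hι sg ker dj we χ c x w hw hc ct cx h0 => by
  classical
  have := Fact.mk hp
  have := Fintype.ofFinite G
  obtain ⟨h, h1, h2, h3⟩ : ∃ h : G, sign (πG h) = -1 ∧ Commute (πG h) (πH c) ∧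
      Perm.Disjoint (πG h) (πH x) := by
    have e := ofSubtype_subtypePerm (f := πH c) (p := (· ∈ (πH c).support)) (fun _ => apply_mem_support)
      fun _ => mem_support.2
    generalize (πH c).subtypePerm (p := (· ∈ (πH c).support)) (fun _ => apply_mem_support) = s at e
    obtain ⟨v, v1, v2⟩ := SetLike.not_le_iff_exists.1 fun k : centralizer {s} ≤ alternatingGroup _ => by
      have := (centralizer_le_alternating_iff.1 k).2.2 p
      rw [← cycleType_ofSubtype, e, ct, Multiset.count_replicate_self] at this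
      omega
    obtain ⟨h, eh⟩ := sj (ofSubtype v)
    refine ⟨h, ?_, ?_, fun b => ?_⟩
    · rw [eh, sign_ofSubtype]
      exact (Int.units_eq_one_or _).resolve_left (by convert v2 using 1; rw [mem_alternatingGroup])
    · have := Commute.map (mem_centralizer_singleton_iff.1 v1) ofSubtype
      rwa [e, ← eh] at this
    · rw [eh]
      by_cases hb : b ∈ (πH c).support
      · exact .inr ((cx b).resolve_left (mem_support.1 hb))
      · exact .inl (ofSubtype_apply_of_not_mem v hb)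
  have hN : h ∉ ι.range := fun k => by rw [← sg, h1] at k; exact absurd k (by decide)
  have c1 : Commute h (ι x) := dj h (ι x) (by rwa [hι]) ((sg _).2 ⟨x, rfl⟩)
  have c2 : Commute h (ι c) := by
    obtain ⟨k1, k2⟩ := ker (h * ι c * h⁻¹ * (ι c)⁻¹) (by simp [hι, h2.eq])
    have k3 : (h * ι c * h⁻¹ * (ι c)⁻¹) ^ p = 1 := by
      have := (k2 (ι c)).mul_pow p
      rwa [inv_mul_cancel_right, conj_pow, ← map_pow, hc, map_one, mul_one, mul_inv_cancel, mul_one,
        eq_comm] at this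
    obtain ⟨j, rfl⟩ := ho
    rw [pow_succ, pow_mul, sq, k1, one_pow, one_mul, mul_inv_eq_one, mul_inv_eq_iff_eq_mul] at k3
    exact k3
  have i2 : ι.range.index = 2 := index_eq_two_iff.2 ⟨h, fun g => by
    simp only [← sg, map_mul, h1]
    rcases Int.units_eq_one_or (sign (πG g)) with e | e <;> simp [e]⟩
  have := normal_of_index_eq_two i2
  have hθ := χ.2.comp_mulEquiv (MonoidHom.ofInjective inj).symm
  obtain ⟨ξ, hξ, ov⟩ := H32.exists_irr_over hθ
  obtain ⟨a, ha⟩ := H40.An.add_cj_eq i2 hN hξ hθ ov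
  have v := congrFun ha (MonoidHom.ofInjective inj (c * x))
  have e : (⟨h * (MonoidHom.ofInjective inj (c * x) : ι.range) * h⁻¹,
      Normal.conj_mem ‹_› _ (Subtype.prop _) h⟩ : ι.range) = MonoidHom.ofInjective inj (c * x) :=
    Subtype.ext (show h * ι (c * x) * h⁻¹ = ι (c * x) by
      rw [map_mul]; exact (c2.mul_right c1).mul_inv_cancel)
  rw [Pi.add_apply, H32.cj_apply, e] at v
  simp only [MulEquiv.symm_apply_apply, Pi.smul_apply, MonoidHom.ofInjective_apply, smul_eq_mul] at v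
  obtain ⟨σ, hσ, -⟩ := H40.Sn.parts_mul ct cx
  rw [Multiset.map_replicate, mul_one, ← map_mul, ← hι] at hσ
  refine le_trans (Nat.add_le_add_right ?_ w) (we ⟨ξ, hξ⟩ (ι (c * x)) σ w ((sg _).2 ⟨_, rfl⟩) hσ fun k => h0 ?_)
  · obtain ⟨n, hn⟩ := (hξ.isCharacter.restrict ι.range).classInner_nat hθ.isCharacter
    have d := H32.clifford_degree hξ hθ ov
    rw [hn, map_one, ← χ.2.isCharacter.cast_charDegree, ← Nat.cast_mul, ← Nat.cast_mul] at d
    have d0 := hξ.isCharacter.charDegree_eq_zero_iff.not.2 hξ.ne_zero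
    exact (Nat.factorization_le_iff_dvd (χ.2.isCharacter.charDegree_eq_zero_iff.not.2 χ.2.ne_zero) d0).2
      (charDegree_eq d ▸ dvd_mul_left _ _) p
  · rw [show ξ (ι (c * x)) = 0 from k, mul_zero] at v
    linear_combination v / 2

end H44.Sp
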