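/- Tower T3 (S5228), slots O3, GZ and CZ. -/
import Cfsg.Agent.H11.T3Spec
import Cfsg.Agent.H92.Inv2

set_option autoImplicit false

namespace H44.T3

open Subgroup H92 H90.RF H11.T3 H11.T3.Co Cfsg Cfsg.FusionSystem
open H90.U5 (conj_aY nor_of_cm ext_of lg_aY pr_bot)

theorem conjN {m : Co} (h : m ∈ sN) : ∃ t, t⁻¹ * m * t ∈ sW ∨ t⁻¹ * m * t ∈ sC4 := by
  obtain ⟨h1, h2, h3⟩ := h
  by_cases k : m.a = 0 ∧ m.d = 0
  · exact ⟨1, .inr (by simpa using ⟨h1, k.1, k.2, h3⟩)⟩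
  · obtain ⟨x, y, e⟩ : ∃ x y : ZMod 3, (⟨0, 0, 0, x, y, 0, 0, 0, 0, 0⟩ : Co)⁻¹ * m *
        ⟨0, 0, 0, x, y, 0, 0, 0, 0, 0⟩ ∈ sW := by
      simp only [mem_sW, mul_b, mul_a, mul_d, mul_c, mul_e, mul_g, mul_h, inv_b, inv_a, inv_d, inv_c, inv_e,
        inv_f, inv_g, inv_h, mul_f, h1, h2, h3]
      revert k
      generalize m.a = a; generalize m.d = d; generalize m.g = g; generalize m.h = h; generalize m.f = f
      revert a d g h f
      decide +kernel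
    exact ⟨_, .inl e⟩

theorem jobO3 : JobO3 := fun m hm h => by
  have hb : m.b = 0 := hm
  have h1 := cb_i m
  have h2 := cb_j m
  rw [h] at h1 h2
  obtain ⟨k, e⟩ : ∃ k, (xb k)⁻¹ * m * xb k ∈ sN ∨ (xb k)⁻¹ * m * xb k ∈ sC4 ∨ (xb k)⁻¹ * m * xb k ∈ sK := by
    simp only [mem_sN, mem_sC4, mem_sK, xb, mul_b, mul_a, mul_d, mul_c, mul_e, inv_b, inv_a, inv_d, inv_c,
      inv_e, hb]
    simp [hb] at h1 h2
    revert h1 h2
    generalize m.a = a; generalize m.d = d; generalize m.c = c; generalize m.e = e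
    revert a d c e
    decide +kernel
  rcases e with e | e
  · obtain ⟨t, ht⟩ := conjN e
    rw [show t⁻¹ * ((xb k)⁻¹ * m * xb k) * t = (xb k * t)⁻¹ * m * (xb k * t) by group] at ht
    exact ⟨_, ht.imp_right .inl⟩
  · exact ⟨_, .inr e⟩

theorem cj_b {u : Co} (hu : u ∈ sZ2) (k : ZMod 3) :
    (xb k * u * (xb k)⁻¹).i = u.i ∧ (xb k * u * (xb k)⁻¹).j = u.j + k * u.i := by
  obtain ⟨p0, p1, p2, p3, p4, p5, p6, p7⟩ := hu
  simp [xb, mul_comm, *]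

theorem lay_of (aS : AS) {F : FusionSystem (⊤ : Subgroup Co)} (hF : F.IsSaturated 3)
    {α : Equiv.Perm Co} (hα : α ∈ aY F sZ2) {x y : ZMod 3} (hx : x * x = 1)
    (h : ∀ u ∈ sZ2, (α u).i = x * y * u.i ∧ (α u).j = x * u.j) : ∃ θ ∈ aY F ⊤, Lay θ x y := by
  have a := (lg_aY _).au α hα
  obtain ⟨θ, hθ, e⟩ := ext_of pgroup_Co hF hα (nor_of_cm pgroup_Co hF z0 2 rfl le_rfl
    (fun i hi => by interval_cases i; exacts [bot_le, Z1_le_Z2, le_rfl]) z0_mono z0_normal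
    (fun i hi => z0_cm i (by omega)) hα fun i hi => by
      interval_cases i
      · exact pr_bot a
      · intro u hu
        obtain ⟨p0, p1, p2, p3, p4, p5, p6, p7⟩ := a.mem u (Z1_le_Z2 hu)
        exact ⟨p0, p1, p2, p3, p4, p5, p6, p7, by rw [(h u (Z1_le_Z2 hu)).1, hu.2.2.2.2.2.2.2.2, mul_zero]⟩
      · exact a.mem)
  obtain ⟨-, -, x', y', -, -, l⟩ := aS.top θ ((lg_aY _).au θ hθ)
  have m1 : xi 1 ∈ sZ2 := ⟨rfl, rfl, rfl, rfl, rfl, rfl, rfl, rfl⟩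
  have m2 : xj 1 ∈ sZ1 := ⟨rfl, rfl, rfl, rfl, rfl, rfl, rfl, rfl, rfl⟩
  have e1 := l.i _ m1
  have e2 := l.j _ m2
  rw [← e _ m1, (h _ m1).1] at e1
  rw [← e _ (Z1_le_Z2 m2), (h _ (Z1_le_Z2 m2)).2] at e2
  simp only [xi, xj, mul_one] at e1 e2
  obtain rfl : y = y' := by linear_combination x * e1 - x * y' * e2 - (y - y') * hx
  exact ⟨θ, hθ, e2 ▸ l⟩

theorem jobGZ : JobGZ := fun aS F hF ⟨n, hn, h⟩ => by
  obtain ⟨σ, hσ, e⟩ := conj_aY (X := sZ2) F (xb 1)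
  have a := ((lg_aY _).au n hn).mem
  have b := ((lg_aY _).au σ hσ).mem
  have s : ∀ u ∈ sZ2, (σ u).i = u.i ∧ (σ u).j = u.j + u.i := fun u hu => by
    simpa [e u hu] using cj_b hu 1
  refine ⟨lay_of aS hF (mul_mem (mul_mem (mul_mem (mul_mem hn hn) hσ) hn) hσ) (by decide) fun u hu => ?_,
    lay_of aS hF (mul_mem (mul_mem (mul_mem hn hn) hn) hn) (by decide) fun u hu => ?_⟩
  · have u1 := b u hu
    have u2 := a _ u1
    have u3 := b _ u2
    have u4 := a _ u3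
    simp only [Equiv.Perm.mul_apply, h _ u4, h _ u3, s _ u2, h _ u1, s _ hu]
    generalize u.i = i; generalize u.j = j; revert i j; decide
  · have u1 := a u hu
    have u2 := a _ u1
    have u3 := a _ u2
    simp only [Equiv.Perm.mul_apply, h _ u3, h _ u2, h _ u1, h _ hu]
    generalize u.i = i; generalize u.j = j; revert i j; decide

theorem xb_neg : xb (-1) = (xb 1)⁻¹ := by decide

theorem jobCZ : JobCZ := fun F T E hE hi hZ hT n hn pr h => by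
  have cj : ∀ s, ∀ u ∈ sZ2, s * u * s⁻¹ ∈ sZ2 := fun s u hu => nZ2.conj_mem u hu s
  have hg : Mor F sZ2 fun c => xb 1 * c * (xb 1)⁻¹ := mor_conj F le_top (mem_top _)
  have hk := mor_conj_of_invariant (k := fun c => xb 1 * n (xb (-1) * c * (xb (-1))⁻¹) * (xb 1)⁻¹) hi hn hg
    le_rfl pr fun x _ => by
      rw [xb_neg]; simp [mul_assoc]
  rw [hg.img_eq_of_maps (cj _)] at hk
  obtain ⟨α, hα, e⟩ := hn.exists_aut' pr
  obtain ⟨β, hβ, e'⟩ := hk.exists_aut' fun u hu => cj _ _ (pr _ (cj _ _ hu))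
  have k : ∀ u ∈ sZ2, (af (α * β) u).i = -u.j ∧ (af (α * β) u).j = u.i - u.j := fun u hu => by
    have u1 := cj (xb (-1)) u hu
    have u2 := pr _ u1
    rw [af_mul_apply, e _ (af_mem _ hu), e' u hu]
    simp only [h _ (cj _ _ u2), cj_b u2, h _ u1, cj_b hu]
    generalize u.i = i; generalize u.j = j; revert i j; decide
  have m1 : xi 1 ∈ sZ2 := ⟨rfl, rfl, rfl, rfl, rfl, rfl, rfl, rfl⟩
  obtain ⟨γ, hγ⟩ : ∃ γ, γ = α * β := ⟨_, rfl⟩
  rw [← hγ] at k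
  have h3 : γ ^ 3 = 1 := aut_eq_one fun u hu => by
    have u1 := af_mem γ hu
    have u2 := af_mem γ u1
    obtain ⟨p0, p1, p2, p3, p4, p5, p6, p7⟩ := af_mem γ u2
    obtain ⟨q0, q1, q2, q3, q4, q5, q6, q7⟩ := id hu
    rw [pow_three, af_mul_apply, af_mul_apply]
    refine Co.ext (p0.trans q0.symm) (p1.trans q1.symm) (p2.trans q2.symm) (p3.trans q3.symm) (p4.trans q4.symm)
      (p5.trans q5.symm) (p6.trans q6.symm) (p7.trans q7.symm) ?_ ?_ <;>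
    simp only [k _ u2, k _ u1, k _ hu] <;> ring
  have hp : IsPGroup 3 (zpowers γ) := by
    rintro ⟨_, j, rfl⟩
    exact ⟨1, Subtype.ext (by
      change (γ ^ j) ^ 3 ^ 1 = 1
      rw [pow_one, ← zpow_natCast, ← zpow_mul, mul_comm, zpow_mul, zpow_natCast, h3, one_zpow])⟩
  have tr : ∀ δ ∈ autInducedBy T sZ2, δ = 1 := fun δ hδ => by
    obtain ⟨g, hg, e⟩ := mem_autInducedBy.1 hδ
    exact aut_eq_one fun u hu => by rw [e u hu, conj_eq_cm, cm_EZ (hT hg) hu, mul_one]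
  have := (sylIn_of_fn (pgroup_Co.to_subgroup T) hE (fullyNormalized_of_normal E hZ fun s _ => cj s)).2.2 _
    (fun δ hδ => tr δ hδ ▸ one_mem _) (zpowers_le.2 (hγ ▸ mul_mem hα hβ)) hp
  have := (k _ m1).1
  rw [tr γ (‹zpowers γ = _› ▸ mem_zpowers γ), af_one_apply] at this
  exact absurd this (by decide)

end H44.T3
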